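import Cfsg.Agent.H316.U6Model
import Cfsg.Agent.H129.TwE6Idx
import Cfsg.Agent.H719.AutForm
import Cfsg.Agent.H795.LangT
import Cfsg.Agent.S1035
import Cfsg.Agent.S1062
import Cfsg.Agent.S1063
import Cfsg.Agent.S1064
import Cfsg.Agent.S1065
import Cfsg.Agent.S1066

/-!
# The order of the fixed points of the Frobenius automorphism of `MData` (helper900)

* `conj_std` : `m.σ` is conjugate, by a torus element, to any automorphism with the same action on the roots;
* `card_fix_untw`, `card_fix_tw` : `|Y^σ|` divides `d * |D.group F|`, `d = gcd`, resp. `gcd (3, q + 1) * |²E₆(q)|`;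
* `card_F4` ... : the formulas.
-/

set_option autoImplicit false
set_option linter.dupNamespace false
set_option linter.unusedSectionVars false

namespace Cfsg.Agent.H900.Fra

open CoxeterSystem Cfsg Cfsg.Lie Cfsg.Lie.ChevalleyDatum
open Cfsg.Agent.ChevalleyStructure Cfsg.Agent.ChevalleyStructure.Elts Cfsg.Agent.ChevalleyStructure.CoxeterGeom
  Cfsg.Agent.ChevalleyStructure.CoxeterGeomTypes Cfsg.Agent.ChevalleyStructure.NPerm
open Cfsg.Agent.Tits.Roots Cfsg.Agent.Tits.Core Cfsg.Agent.Nodes Cfsg.Agent.Nodes.Reps Cfsg.Agent.Nodes.BNOf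
  Cfsg.Agent.Nodes.SubComb Cfsg.Agent.Nodes.RGDChev Cfsg.Agent.Nodes.Bruhat Cfsg.Agent.Nodes.Coroot
open Cfsg.Agent.KFacts.RgdField Cfsg.Agent.KFacts.RgdChevCoord
open Cfsg.Agent.BpExc Cfsg.Agent.BpExc.TorCent Cfsg.Agent.BpExc.TorChev Cfsg.Agent.BpExc.Tow
  Cfsg.Agent.BpExc.TowChev Cfsg.Agent.BpExc.Fr Cfsg.Agent.BpExc.LangFr Cfsg.Agent.GpExc.Field
open Cfsg.Agent.H469.Exc Cfsg.Agent.H469.Exc.SigFr Cfsg.Agent.H316.U6 Cfsg.Agent.H795.LangT
open Cfsg.Agent.H129.TorusChar Cfsg.Agent.H129.TorusUntw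
open Cfsg.Agent.ChevalleyStructure.TwE6Basic (sg rho rho_rho hE6)
open Cfsg.Agent.ChevalleyStructure.GraphSymm (symmE6)

universe v

/-! ### counting -/

theorem card_dvd_of_split {Y : Type*} [Group Y] [Finite Y] {R T : Subgroup Y} (hR : R.Normal)
    (h : ∀ y, ∃ a ∈ R, ∃ t ∈ T, y = a * t) {c n : ℕ} (hn : 0 < n) (hc : n ∣ Nat.card (R ⊓ T : Subgroup Y))
    (hT : Nat.card T ∣ n * c) : Nat.card Y ∣ c * Nat.card R := by
  let f : ↥T →* Y ⧸ R := (QuotientGroup.mk' R).comp T.subtype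
  have hf : Function.Surjective f := by
    intro z
    obtain ⟨y, rfl⟩ := QuotientGroup.mk'_surjective R z
    obtain ⟨a, ha, t, ht, rfl⟩ := h y
    refine ⟨⟨t, ht⟩, ?_⟩
    show QuotientGroup.mk' R t = QuotientGroup.mk' R (a * t)
    have h1 : QuotientGroup.mk' R a = 1 := by
      rw [← MonoidHom.mem_ker, QuotientGroup.ker_mk']
      exact ha
    rw [map_mul, h1, one_mul]
  have h1 := f.ker.card_mul_index
  rw [Subgroup.index_ker, MonoidHom.range_eq_top.2 hf, Nat.card_congr Subgroup.topEquiv.toEquiv] at h1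
  have h2 : n ∣ Nat.card f.ker := by
    refine hc.trans ?_
    let j : ↥(R ⊓ T : Subgroup Y) →* ↥f.ker :=
      { toFun := fun y => ⟨⟨y.1, y.2.2⟩, by
          rw [MonoidHom.mem_ker]
          show QuotientGroup.mk' R y.1 = 1
          rw [← MonoidHom.mem_ker, QuotientGroup.ker_mk']
          exact y.2.1⟩
        map_one' := rfl
        map_mul' := fun _ _ => rfl }
    exact Subgroup.card_dvd_of_injective j fun a b hab => Subtype.ext (congrArg (fun y : ↥f.ker => ((y : ↥T) : Y)) hab)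
  have h3 : Nat.card (Y ⧸ R) ∣ c := by
    have h4 : n * Nat.card (Y ⧸ R) ∣ n * c := by
      refine (mul_dvd_mul_right h2 _).trans ?_
      rw [h1]
      exact hT
    exact Nat.dvd_of_mul_dvd_mul_left hn h4
  have h5 := R.card_mul_index
  rw [← h5, mul_comm c]
  exact mul_dvd_mul_left _ h3

variable {D : ChevalleyDatum} {l : ℕ} {M : CoxeterMatrix (Fin l)} (hp : IsType D l M) {r : ℕ} [hr : Fact r.Prime]

/-- torus elements on root elements -/
theorem tor_xs {k : Type*} [Field k] {t : ↥(D.group k)} (ht : t ∈ TT D k) {s : ℕ} (hs : s < D.nroots) (u : k) :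
    t * xs hp.inList s u * t⁻¹ = xs hp.inList s (cX hp t (vec D l s) * u) := by
  have h1 := (act hp hs ht).2 u
  rw [← cX_vec hp ht hs] at h1
  have h2 : ∀ u : k, xs hp.inList s u = xc hp (vec D l s) u := fun u => by
    apply Subtype.ext
    rw [coe_xs, coe_xc hp hs]
  rw [h2, h2, h1]

variable {hp} {q : ℕ} {K₀ : Type v} [Group K₀]

/-- **The Frobenius automorphism is conjugate to a standard one.** -/
theorem conj_std (m : MData hp r q K₀) {d : ℕ} {B : Fin l → Fin l → ℤ} (hB : InvC D l d B) (hd : d ≠ 0)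
    {σ₀ : MulAut ↥(D.group (KK r))} {g₀ : (Fin l → ℤ) ≃+ (Fin l → ℤ)} (h₀ : IsFrob r m.e σ₀)
    (F₀ : Fr M.toCoxeterSystem hp.isCartan (TT D (KK r)) (XX D l (KK r)) σ₀ g₀)
    (hact : ∀ i : Fin l, ∃ s', vec D l s' = m.g (sr i) ∧ ActF hp.inList σ₀ q (D.simple i) s') :
    ∃ s ∈ TT D (KK r), ∀ y, m.σ y = s⁻¹ * σ₀ (s * y * s⁻¹) * s := by
  classical
  have hq0 : q ≠ 0 := by
    rw [← m.hq]
    exact pow_ne_zero _ (Fact.out : r.Prime).ne_zero
  have h1 : ∀ i : Fin l, ∃ s' < D.nroots, vec D l s' = m.g (sr i) ∧ ∃ c c' : KK r, c ≠ 0 ∧ c' ≠ 0 ∧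
      (∀ t, m.σ (xs hp.inList (D.simple i) t) = xs hp.inList s' (c * t ^ q)) ∧
      (∀ t, m.σ (xs hp.inList (D.neg (D.simple i)) t) = xs hp.inList (D.neg s') (c⁻¹ * t ^ q)) ∧
      (∀ t, σ₀ (xs hp.inList (D.simple i) t) = xs hp.inList s' (c' * t ^ q)) ∧
      (∀ t, σ₀ (xs hp.inList (D.neg (D.simple i)) t) = xs hp.inList (D.neg s') (c'⁻¹ * t ^ q)) := by
    intro i
    obtain ⟨s₁, hs₁, hlt₁, c, hc, h1, h2⟩ := m.act _ (simple_lt hp.inList (lt_rank hp i))
    obtain ⟨s₂, hs₂, hlt₂, c', hc', h3, h4⟩ := hact i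
    rw [vec_simple hp i] at hs₁
    obtain rfl : s₁ = s₂ := vec_inj hp hlt₁ hlt₂ (hs₁.trans hs₂.symm)
    exact ⟨s₁, hlt₁, hs₁, c, c', hc, hc', h1, h2, h3, h4⟩
  choose s hs hvec c c' hc hc' hσ hσn h₀σ h₀σn using h1
  have hχ : IsMC (fun x : Fin l → ℤ => ∏ i, (c i / c' i) ^ x i) :=
    IsMC.of_prod _ fun i => div_ne_zero (hc i) (hc' i)
  have hχi : ∀ i, (fun x : Fin l → ℤ => ∏ i, (c i / c' i) ^ x i) (sr i) = c i / c' i := by
    intro i
    show ∏ j, (c j / c' j) ^ (sr i : Fin l → ℤ) j = _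
    rw [Finset.prod_eq_single i]
    · rw [sr_self, zpow_one]
    · intro j _ hj
      rw [sr_ne hj, zpow_zero]
    · intro hi
      exact absurd (Finset.mem_univ i) hi
  obtain ⟨t, ht, hct⟩ := exists_cX hp hB hd (hχ.comp m.g.symm.toAddMonoidHom)
    (fun i => IsAlgClosed.exists_pow_nat_eq _ (Nat.pos_of_ne_zero hd))
  have hcti : ∀ i, cX hp t (vec D l (s i)) = c i / c' i := by
    intro i
    rw [hct, hvec]
    show (fun x : Fin l → ℤ => ∏ i, (c i / c' i) ^ x i) (m.g.symm (m.g (sr i))) = _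
    rw [AddEquiv.symm_apply_apply, hχi]
  have hkey : m.σ.toMonoidHom = (MulAut.conj t * σ₀).toMonoidHom := by
    refine H79.SimpleGen.hom_ext hp.inList _ _ ?_ ?_
    · intro i hi u
      have hil : i < l := by rwa [← hp.rank_eq]
      show m.σ (xs hp.inList (D.simple i) u) = t * σ₀ (xs hp.inList (D.simple i) u) * t⁻¹
      rw [hσ ⟨i, hil⟩, h₀σ ⟨i, hil⟩, tor_xs hp ht (hs _), hcti]
      congr 1
      have := hc' ⟨i, hil⟩
      field_simp
    · intro i hi u
      have hil : i < l := by rwa [← hp.rank_eq]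
      show m.σ (xs hp.inList (D.neg (D.simple i)) u) = t * σ₀ (xs hp.inList (D.neg (D.simple i)) u) * t⁻¹
      rw [hσn ⟨i, hil⟩, h₀σn ⟨i, hil⟩, tor_xs hp ht (neg_lt hp.inList (hs _)), vec_neg hp (hs _),
        (isMC_cX hp ht).neg, hcti]
      congr 1
      have h1 := hc' ⟨i, hil⟩
      have h2 := hc ⟨i, hil⟩
      field_simp
  obtain ⟨z, hz, e⟩ := lang_torus hp hB hd m.he h₀ F₀ ht
  refine ⟨z, hz, fun y => ?_⟩
  have h2 : m.σ y = t * σ₀ y * t⁻¹ := DFunLike.congr_fun hkey y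
  rw [h2, e, map_mul, map_mul, map_inv]
  group

/-- the order of the fixed points -/
theorem card_fix_std (m : MData hp r q K₀) {d : ℕ} {B : Fin l → Fin l → ℤ} (hB : InvC D l d B) (hd : d ≠ 0)
    {σ₀ : MulAut ↥(D.group (KK r))} {g₀ : (Fin l → ℤ) ≃+ (Fin l → ℤ)} (h₀ : IsFrob r m.e σ₀)
    (F₀ : Fr M.toCoxeterSystem hp.isCartan (TT D (KK r)) (XX D l (KK r)) σ₀ g₀)
    (hact : ∀ i : Fin l, ∃ s', vec D l s' = m.g (sr i) ∧ ActF hp.inList σ₀ q (D.simple i) s') :
    Nat.card (fixedSubgroup m.σ) = Nat.card (fixedSubgroup σ₀) := by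
  obtain ⟨s, -, hs⟩ := conj_std m hB hd h₀ F₀ hact
  refine Nat.card_congr ⟨fun y => ⟨s * y * s⁻¹, ?_⟩, fun y => ⟨s⁻¹ * y * s, ?_⟩, fun y => ?_, fun y => ?_⟩
  · have h1 : m.σ y.1 = y.1 := y.2
    rw [hs] at h1
    show σ₀ (s * y.1 * s⁻¹) = s * y.1 * s⁻¹
    nth_rewrite 2 [← h1]
    group
  · have h1 : σ₀ y.1 = y.1 := y.2
    show m.σ (s⁻¹ * y.1 * s) = s⁻¹ * y.1 * s
    rw [hs]
    have e : s * (s⁻¹ * y.1 * s) * s⁻¹ = y.1 := by group
    rw [e, h1]
  · apply Subtype.ext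
    show s⁻¹ * (s * y.1 * s⁻¹) * s = y.1
    group
  · apply Subtype.ext
    show s * (s⁻¹ * y.1 * s) * s⁻¹ = y.1
    group

/-! ### untwisted -/

section untw

variable {k : Type} [Field k] [IsAlgClosed k] [CharP k r] {F : Type} [Field F] [Fintype F] {e : ℕ}

theorem phi_xs {s : ℕ} (hs : s < D.nroots) (t : k) :
    phi D k r e (xs hp.inList s t) = xs hp.inList s (1 * t ^ r ^ e) := by
  have h2 : ∀ u : k, xs hp.inList s u = xc hp (vec D l s) u := fun u => by
    apply Subtype.ext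
    rw [coe_xs, coe_xc hp hs]
  rw [h2, h2, phi_eq hp, TowChev.emb_xc, iterateFrobenius_def, one_mul]

theorem not_dvd_pred {r e : ℕ} (hr : r.Prime) (he : 0 < e) : ¬ r ∣ r ^ e - 1 := by
  intro h
  have h1 : r ∣ r ^ e := dvd_pow_self r he.ne'
  have h2 : 1 ≤ r ^ e := Nat.one_le_pow _ _ hr.pos
  have h3 := (Nat.dvd_sub_iff_right h2 h1).1 h
  exact hr.one_lt.ne' (Nat.dvd_one.1 h3)

variable (hp) in
include hp in
/-- `|Y^φ|`, `φ` the Frobenius automorphism -/
theorem card_phi (f : F →+* k) (he : 0 < e) (hF : Fintype.card F = r ^ e)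
    (hfin : Finite ↥(fixedSubgroup (phi D k r e))) {c : ℕ}
    (hc : c * Nat.card (D.diagonalSubgroup F) = (r ^ e - 1) ^ l) :
    Nat.card (fixedSubgroup (phi D k r e)) ∣ c * Nat.card (D.group F) := by
  classical
  have hrp : r.Prime := Fact.out
  have hq1 : r ^ e - 1 ≠ 0 := (Nat.sub_pos_of_lt (Nat.one_lt_pow he.ne' hrp.one_lt)).ne'
  have hdF : Nat.card (TT D F) = Nat.card (D.diagonalSubgroup F) :=
    Nat.card_congr (Subgroup.subgroupOfEquivOfLe (diagonal_le_group hp.inList F)).toEquiv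
  have : Finite ↥(D.group F) := inferInstance
  let e₀ : ↥(D.group F) →* ↥(fixedSubgroup (phi D k r e)) :=
    MonoidHom.codRestrict (emb hp.inList f) (fixedSubgroup (phi D k r e)) (fun x => phi_emb hp f hF x)
  have he₀ : Function.Injective e₀ := fun x y h =>
    emb_injective hp.inList f (congrArg (fun y : ↥(fixedSubgroup (phi D k r e)) => (y : ↥(D.group k))) h)
  have hR : e₀.range.Normal := by
    constructor
    rintro _ ⟨x, rfl⟩ y
    obtain ⟨x', hx'⟩ := Emb.conj_mem_range (F := F) (hD := hp.inList) (f := f) (φ := iterateFrobenius k r e)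
      (fun t => by rw [iterateFrobenius_def, hF]) (σ := phi D k r e) coe_phi y.2 (n := emb hp.inList f x) ⟨x, rfl⟩
    exact ⟨x', Subtype.ext hx'⟩
  have hcR : Nat.card e₀.range = Nat.card (D.group F) := (Nat.card_congr (MonoidHom.ofInjective he₀).toEquiv).symm
  rw [← hcR]
  refine card_dvd_of_split (T := (TT D k).subgroupOf (fixedSubgroup (phi D k r e))) hR ?_
    (n := Nat.card (TT D F)) Nat.card_pos ?_ ?_
  · intro y
    obtain ⟨x, t, ht, e1⟩ := fix_split hp f hF (show phi D k r e y.1 = y.1 from y.2)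
    have h1 : phi D k r e t = t := by
      have h2 : phi D k r e y.1 = y.1 := y.2
      rw [e1, map_mul, phi_emb hp f hF] at h2
      exact mul_left_cancel h2
    exact ⟨e₀ x, ⟨x, rfl⟩, ⟨t, h1⟩, ht, Subtype.ext e1⟩
  · let j : ↥(TT D F) →* ↥(e₀.range ⊓ (TT D k).subgroupOf (fixedSubgroup (phi D k r e)) :
        Subgroup ↥(fixedSubgroup (phi D k r e))) :=
      MonoidHom.codRestrict (e₀.comp (TT D F).subtype) _ (fun x => ⟨⟨x.1, rfl⟩, emb_T hp f ⟨x.1, x.2, rfl⟩⟩)
    refine Subgroup.card_dvd_of_injective j fun a b hab => Subtype.ext (he₀ ?_)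
    exact congrArg (fun y : ↥(e₀.range ⊓ (TT D k).subgroupOf (fixedSubgroup (phi D k r e)) :
        Subgroup ↥(fixedSubgroup (phi D k r e))) => y.1) hab
  · rw [hdF, mul_comm, hc]
    have hNk : ((r ^ e - 1 : ℕ) : k) ≠ 0 := by
      rw [Ne, CharP.cast_eq_zero_iff k r]
      exact not_dvd_pred hrp he
    have : NeZero ((r ^ e - 1 : ℕ) : k) := ⟨hNk⟩
    have : NeZero (r ^ e - 1) := ⟨hq1⟩
    have h1 : Nat.card (Fin l → rootsOfUnity (r ^ e - 1) k) = (r ^ e - 1) ^ l := by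
      rw [Nat.card_fun, HasEnoughRootsOfUnity.natCard_rootsOfUnity, Nat.card_eq_fintype_card, Fintype.card_fin]
    rw [← h1]
    have hv : ∀ t : ↥((TT D k).subgroupOf (fixedSubgroup (phi D k r e))), ∀ i,
        cX hp t.1.1 (sr i) ^ (r ^ e - 1) = 1 := by
      intro t i
      have h2 := cX_sigma hp M.toCoxeterSystem isFrob_phi (fr_phi (p := r) (e := e) hp M.toCoxeterSystem) t.2 (sr i)
      have h3 : phi D k r e t.1.1 = t.1.1 := t.1.2
      rw [show phi D k r e ((fixedSubgroup (phi D k r e)).subtype t.1) = t.1.1 from h3] at h2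
      have h4 := (isMC_cX hp (show t.1.1 ∈ TT D k from t.2)).ne_zero (sr i)
      have h5 : cX hp t.1.1 (sr i) * cX hp t.1.1 (sr i) ^ (r ^ e - 1) = cX hp t.1.1 (sr i) := by
        rw [← pow_succ', Nat.sub_add_cancel (Nat.one_le_pow _ _ hrp.pos)]
        exact h2.symm
      exact (mul_eq_left₀ h4).1 h5
    let ψ : ↥((TT D k).subgroupOf (fixedSubgroup (phi D k r e))) →* (Fin l → rootsOfUnity (r ^ e - 1) k) :=
      { toFun := fun t i => ⟨Units.mk0 (cX hp t.1.1 (sr i)) ((isMC_cX hp t.2).ne_zero _),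
          (mem_rootsOfUnity _ _).2 (Units.ext (hv t i))⟩
        map_one' := by
          funext i
          exact Subtype.ext (Units.ext (cX_one hp _))
        map_mul' := fun s t => by
          funext i
          exact Subtype.ext (Units.ext (cX_mul hp s.2 t.2 _)) }
    refine Subgroup.card_dvd_of_injective ψ fun s t h => Subtype.ext (Subtype.ext ?_)
    refine cX_inj hp s.2 t.2 fun i => ?_
    have h2 := congrFun h i
    exact congrArg (fun z : rootsOfUnity (r ^ e - 1) k => ((z : kˣ) : k)) h2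

end untw

/-- **`|Y^σ|`, untwisted** -/
theorem card_fix_untw (m : MData hp r q K₀) {d : ℕ} {B : Fin l → Fin l → ℤ} (hB : InvC D l d B) (hd : d ≠ 0)
    (hg : m.g = AddEquiv.refl _) {c n : ℕ}
    (hc : ∀ (F : Type) [Field F] [Fintype F], Fintype.card F = q → c * Nat.card (D.diagonalSubgroup F) = (q - 1) ^ l)
    (hn : ∀ (F : Type) [Field F] [Fintype F], Fintype.card F = q → c * Nat.card (D.group F) = n) :
    Nat.card (fixedSubgroup m.σ) ∣ n := by
  classical
  have he := m.he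
  let F := GaloisField r m.e
  have : Fintype F := Fintype.ofFinite F
  have hF : Fintype.card F = r ^ m.e := by
    rw [← Nat.card_eq_fintype_card]
    exact GaloisField.card r m.e he.ne'
  obtain ⟨f⟩ := RowsUntw.exists_emb r F
  have hcard := card_fix_std m hB hd (σ₀ := phi D (KK r) r m.e) isFrob_phi (fr_phi hp M.toCoxeterSystem) (by
    intro i
    refine ⟨D.simple i, by rw [vec_simple hp i, hg]; rfl, simple_lt hp.inList (lt_rank hp i), 1, one_ne_zero, ?_, ?_⟩
    · intro t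
      rw [phi_xs (hp := hp) (simple_lt hp.inList (lt_rank hp i)), m.hq]
    · intro t
      rw [phi_xs (hp := hp) (neg_lt hp.inList (simple_lt hp.inList (lt_rank hp i))), m.hq, inv_one])
  have hfin : Finite ↥(fixedSubgroup (phi D (KK r) r m.e)) := by
    have := m.fin
    refine Nat.finite_of_card_ne_zero ?_
    rw [← hcard]
    exact Nat.card_pos.ne'
  rw [hcard, ← hn F (by rw [hF, m.hq])]
  exact card_phi hp f he hF hfin (by rw [hc F (by rw [hF, m.hq]), m.hq])

/-! ### twisted -/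

section tw

open Cfsg.Agent.H129.TwE6Fr

variable {k : Type} [Field k] [IsAlgClosed k] [CharP k r] {F : Type} [Field F] [Fintype F] {e : ℕ}

theorem tau_actF (s : Fin chevE6.nroots) :
    ActF Nodes.RGDTwE6.hp.inList (tau k r e) (r ^ e) s (symmE6.σ s) :=
  actF_symm_fld symmE6 (γ := gam k) Nodes.RGDTwE6.hp.inList (fun _ => rfl) (Φ := iterateFrobeniusEquiv k r e)
    (q := r ^ e) (fun a => by rw [coe_iterateFrobeniusEquiv, iterateFrobenius_def]) s

/-- `|Y^τ|`, `τ` the twisted Frobenius automorphism -/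
theorem card_tau (f : F →+* k) (he : 0 < e) {q : ℕ} (hqe : q = r ^ e) (hF : Fintype.card F = q ^ 2)
    (hfin : Finite ↥(fixedSubgroup (tau k r e))) :
    Nat.card (fixedSubgroup (tau k r e)) ∣ Nat.gcd 3 (q + 1) * Nat.card (twistedE6 F q) := by
  classical
  have hrp : r.Prime := Fact.out
  have hq : IsPrimePow q := by
    rw [hqe]
    exact hrp.isPrimePow.pow he.ne'
  have hY : Finite ↥(twistedE6 F q) := inferInstance
  let e₀ : ↥(twistedE6 F q) →* ↥(fixedSubgroup (tau k r e)) :=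
    MonoidHom.codRestrict (embT f hq hF) (fixedSubgroup (tau k r e)) (fun x => tau_embT f hqe hq hF x)
  have he₀ : Function.Injective e₀ := fun x y h =>
    embT_injective f hq hF (congrArg (fun y : ↥(fixedSubgroup (tau k r e)) => (y : ↥(chevE6.group k))) h)
  have hR : e₀.range.Normal := by
    constructor
    rintro _ ⟨x, rfl⟩ y
    obtain ⟨x', hx'⟩ := tau_normal f hqe hq hF (g := y.1) y.2 (y := embT f hq hF x) ⟨x, rfl⟩
    exact ⟨x', Subtype.ext hx'⟩
  have hcR : Nat.card e₀.range = Nat.card (twistedE6 F q) :=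
    (Nat.card_congr (MonoidHom.ofInjective he₀).toEquiv).symm
  rw [← hcR]
  have hpos : 0 < Nat.card ↥(chevE6.diagonalSubgroup F ⊓ twistedE6 F q) := Nat.card_pos
  refine card_dvd_of_split (T := (TT chevE6 k).subgroupOf (fixedSubgroup (tau k r e))) hR ?_ hpos ?_ ?_
  · intro y
    obtain ⟨x, t, ht, h1, e1⟩ := tau_split f hqe hq hF (show tau k r e y.1 = y.1 from y.2)
    exact ⟨e₀ x, ⟨x, rfl⟩, ⟨t, h1⟩, ht, Subtype.ext e1⟩
  · let j : ↥(chevE6.diagonalSubgroup F ⊓ twistedE6 F q) →*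
        ↥(e₀.range ⊓ (TT chevE6 k).subgroupOf (fixedSubgroup (tau k r e)) :
        Subgroup ↥(fixedSubgroup (tau k r e))) :=
      MonoidHom.codRestrict (e₀.comp
        (Subgroup.inclusion (inf_le_right : chevE6.diagonalSubgroup F ⊓ twistedE6 F q ≤ twistedE6 F q))) _
        (fun x => ⟨⟨_, rfl⟩,
          emb_T RGDTwE6.hp f ⟨Subgroup.inclusion (tw_le hq hF) ⟨x.1, x.2.2⟩, x.2.1, rfl⟩⟩)
    refine Subgroup.card_dvd_of_injective j fun a b hab => ?_
    have h1 : e₀ ⟨a.1, a.2.2⟩ = e₀ ⟨b.1, b.2.2⟩ :=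
      congrArg (fun y : ↥(e₀.range ⊓ (TT chevE6 k).subgroupOf (fixedSubgroup (tau k r e)) :
        Subgroup ↥(fixedSubgroup (tau k r e))) => y.1) hab
    have h2 := congrArg Subtype.val (he₀ h1)
    exact Subtype.ext h2
  · have hA := card_Tfix (p := r) (e := e) hqe hq hF f
    have hB := Cfsg.Agent.S1102.result hq hF
    rw [mul_comm, hB, ← hA]
    let j : ↥((TT chevE6 k).subgroupOf (fixedSubgroup (tau k r e))) →* ↥(Tfix k r e) :=
      { toFun := fun t => ⟨t.1.1, t.2, t.1.2⟩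
        map_one' := rfl
        map_mul' := fun _ _ => rfl }
    exact Subgroup.card_dvd_of_injective j fun a b hab =>
      Subtype.ext (Subtype.ext (congrArg (fun y : ↥(Tfix k r e) => (y : ↥(chevE6.group k))) hab))

end tw

/-- **`|Y^σ|`, twisted** -/
theorem card_fix_tw {r : ℕ} [Fact r.Prime] {q : ℕ} {K₀ : Type v} [Group K₀] (m : MData Nodes.RGDTwE6.hp r q K₀)
    (hg : m.g = H720.TwFr.permE H720.TwFr.rho6) :
    Nat.card (fixedSubgroup m.σ) ∣
      q ^ 36 * (q ^ 2 - 1) * (q ^ 5 + 1) * (q ^ 6 - 1) * (q ^ 8 - 1) * (q ^ 9 + 1) * (q ^ 12 - 1) := by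
  classical
  have hrp : r.Prime := Fact.out
  have he := m.he
  let F := GaloisField r (m.e * 2)
  have : Fintype F := Fintype.ofFinite F
  have hF : Fintype.card F = q ^ 2 := by
    rw [← m.hq, ← pow_mul, ← Nat.card_eq_fintype_card]
    exact GaloisField.card r (m.e * 2) (Nat.mul_pos he (by norm_num)).ne'
  have hq : IsPrimePow q := by
    rw [← m.hq]
    exact hrp.isPrimePow.pow he.ne'
  obtain ⟨f⟩ := RowsUntw.exists_emb r F
  have hcard := card_fix_std m invC_E6 (by norm_num) (σ₀ := H129.TwE6Fr.tau (KK r) r m.e) H129.TwE6Fr.isFrob_tau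
    (H129.TwE6Fr.fr_tau CoxeterMatrix.E₆.toCoxeterSystem) (by
    intro i
    have h1 : chevE6.simple i < chevE6.nroots := H720.TwFr.simple_lt6 i
    refine ⟨symmE6.σ ⟨chevE6.simple i, h1⟩, ?_, ?_⟩
    · rw [H720.TwFr.vecPerm6.vec, hg, ← vec_simple Nodes.RGDTwE6.hp i]
    · have h2 := tau_actF (k := KK r) (r := r) (e := m.e) ⟨chevE6.simple i, h1⟩
      rwa [m.hq] at h2)
  have hfin : Finite ↥(fixedSubgroup (H129.TwE6Fr.tau (KK r) r m.e)) := by
    have := m.fin
    refine Nat.finite_of_card_ne_zero ?_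
    rw [← hcard]
    exact Nat.card_pos.ne'
  rw [hcard, ← Cfsg.Agent.S1066.result hq hF]
  exact card_tau f he m.hq.symm hF hfin

/-! ### the formulas -/

section formulas

variable {r : ℕ} [Fact r.Prime] {q : ℕ} {K₀ : Type v} [Group K₀]

theorem card_F4 {M : CoxeterMatrix (Fin 4)} {hp : IsType chevF4 4 M} (m : MData hp r q K₀)
    (hg : m.g = AddEquiv.refl _) :
    Nat.card (fixedSubgroup m.σ) ∣ q ^ 24 * (q ^ 2 - 1) * (q ^ 6 - 1) * (q ^ 8 - 1) * (q ^ 12 - 1) :=
  card_fix_untw m invC_F4 (by norm_num) hg (c := 1)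
    (fun F _ _ hF => S1035.result hF (chevF4, 1) (by simp))
    (fun F _ _ hF => by rw [one_mul]; exact S1062.result hF)

theorem card_E6 {M : CoxeterMatrix (Fin 6)} {hp : IsType chevE6 6 M} (m : MData hp r q K₀)
    (hg : m.g = AddEquiv.refl _) :
    Nat.card (fixedSubgroup m.σ) ∣
      q ^ 36 * (q ^ 2 - 1) * (q ^ 5 - 1) * (q ^ 6 - 1) * (q ^ 8 - 1) * (q ^ 9 - 1) * (q ^ 12 - 1) :=
  card_fix_untw m invC_E6 (by norm_num) hg (c := Nat.gcd 3 (q - 1))
    (fun F _ _ hF => S1035.result hF (chevE6, Nat.gcd 3 (q - 1)) (by simp))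
    (fun F _ _ hF => S1063.result hF)

theorem card_E7 {M : CoxeterMatrix (Fin 7)} {hp : IsType chevE7 7 M} (m : MData hp r q K₀)
    (hg : m.g = AddEquiv.refl _) :
    Nat.card (fixedSubgroup m.σ) ∣
      q ^ 63 * (q ^ 2 - 1) * (q ^ 6 - 1) * (q ^ 8 - 1) * (q ^ 10 - 1) * (q ^ 12 - 1) * (q ^ 14 - 1) * (q ^ 18 - 1) :=
  card_fix_untw m invC_E7 (by norm_num) hg (c := Nat.gcd 2 (q - 1))
    (fun F _ _ hF => S1035.result hF (chevE7, Nat.gcd 2 (q - 1)) (by simp))
    (fun F _ _ hF => S1064.result hF)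

theorem card_E8 {M : CoxeterMatrix (Fin 8)} {hp : IsType chevE8 8 M} (m : MData hp r q K₀)
    (hg : m.g = AddEquiv.refl _) :
    Nat.card (fixedSubgroup m.σ) ∣
      q ^ 120 * (q ^ 2 - 1) * (q ^ 8 - 1) * (q ^ 12 - 1) * (q ^ 14 - 1) * (q ^ 18 - 1) * (q ^ 20 - 1) *
        (q ^ 24 - 1) * (q ^ 30 - 1) :=
  card_fix_untw m invC_E8 (by norm_num) hg (c := 1)
    (fun F _ _ hF => S1035.result hF (chevE8, 1) (by simp))
    (fun F _ _ hF => by rw [one_mul]; exact S1065.result hF)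

end formulas

end Cfsg.Agent.H900.Fra
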