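import Cfsg.Agent.H818.Mono.Defs
import Cfsg.Agent.H795.LangT

/-!
# S2187, X4, M1: frames (helper900)

`exists_frame` : a `p`-subgroup `E` of `Y^σ` has a frame `z` of type `g = w₀ ∘ m.g` as soon as the `p`-part of `|Y^σ|` divides
`N ^ j * |V|`, where `T^τ` contains `j` independent characters of order `N` (`hdual`, `hf`) and `V ≤ C_W(g)`.
-/

set_option autoImplicit false
set_option linter.dupNamespace false
set_option linter.unusedSectionVars false

namespace Cfsg.Agent.H900.Fra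

open CoxeterSystem Cfsg Cfsg.Lie Cfsg.Lie.ChevalleyDatum
open Cfsg.Agent.ChevalleyStructure Cfsg.Agent.ChevalleyStructure.Elts Cfsg.Agent.ChevalleyStructure.CoxeterGeom
  Cfsg.Agent.ChevalleyStructure.CoxeterGeomTypes Cfsg.Agent.ChevalleyStructure.NPerm
open Cfsg.Agent.Tits.Roots Cfsg.Agent.Tits.Core Cfsg.Agent.Nodes Cfsg.Agent.Nodes.Reps Cfsg.Agent.Nodes.BNOf
  Cfsg.Agent.Nodes.SubComb Cfsg.Agent.Nodes.RGDChev Cfsg.Agent.Nodes.Bruhat Cfsg.Agent.Nodes.Coroot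
open Cfsg.Agent.KFacts.RgdField Cfsg.Agent.KFacts.RgdChevCoord
open Cfsg.Agent.BpExc Cfsg.Agent.BpExc.TorCent Cfsg.Agent.BpExc.TorChev Cfsg.Agent.BpExc.Tow
  Cfsg.Agent.BpExc.TowChev Cfsg.Agent.BpExc.Fr Cfsg.Agent.BpExc.LangFr
open Cfsg.Agent.H469.Exc Cfsg.Agent.H316.U6 Cfsg.Agent.H818.Mono Cfsg.Agent.H795.LangT
open Cfsg.Agent.H129.TorusChar

universe v

/-! ### Sylow -/

/-- a `p`-subgroup is conjugate into a subgroup containing the `p`-part of the order -/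
theorem sylow_conj {G : Type*} [Group G] [Finite G] {p : ℕ} [Fact p.Prime] {N E : Subgroup G} {b : ℕ}
    (hN : p ^ b ∣ Nat.card N) (hG : ¬ p ^ (b + 1) ∣ Nat.card G) (hE : IsPGroup p E) :
    ∃ y : G, ∀ x ∈ E, y⁻¹ * x * y ∈ N := by
  obtain ⟨P₀⟩ : Nonempty (Sylow p ↥N) := inferInstance
  have hP₀ : p ^ b ∣ Nat.card (P₀ : Subgroup ↥N) := by
    rw [P₀.card_eq_multiplicity]
    exact Nat.pow_dvd_pow p ((Nat.Prime.pow_dvd_iff_le_factorization (Fact.out : p.Prime) Nat.card_pos.ne').1 hN)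
  set P : Subgroup G := (P₀ : Subgroup ↥N).map N.subtype with hPdef
  have hPN : P ≤ N := by
    rintro _ ⟨y, -, rfl⟩
    exact y.2
  have hPp : IsPGroup p P := P₀.isPGroup'.map _
  have hcP : Nat.card P = Nat.card (P₀ : Subgroup ↥N) :=
    Nat.card_congr ((P₀ : Subgroup ↥N).equivMapOfInjective _ N.subtype_injective).symm.toEquiv
  obtain ⟨Q, hQ⟩ := hPp.exists_le_sylow
  have hfac : (Nat.card G).factorization p ≤ b := by
    by_contra hcon
    exact hG ((Nat.Prime.pow_dvd_iff_le_factorization (Fact.out : p.Prime) Nat.card_pos.ne').2 (by omega))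
  have hQP : P = (Q : Subgroup G) := by
    refine Subgroup.eq_of_le_of_card_ge hQ ?_
    rw [Q.card_eq_multiplicity, hcP]
    exact (Nat.pow_le_pow_right (Fact.out : p.Prime).pos hfac).trans (Nat.le_of_dvd Nat.card_pos hP₀)
  obtain ⟨R, hR⟩ := hE.exists_le_sylow
  obtain ⟨y, hy⟩ := MulAction.exists_smul_eq G Q R
  refine ⟨y, fun x hx => hPN ?_⟩
  have h1 : x ∈ (R : Subgroup G) := hR hx
  rw [← hy, Sylow.coe_subgroup_smul, Subgroup.mem_pointwise_smul_iff_inv_smul_mem] at h1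
  rw [hQP]
  have h2 : y⁻¹ * x * y = (MulAut.conj y)⁻¹ • x := by
    rw [← map_inv]
    show _ = y⁻¹ * x * y⁻¹⁻¹
    rw [inv_inv]
  rw [h2]
  exact h1

variable {D : ChevalleyDatum} {l : ℕ} {M : CoxeterMatrix (Fin l)} (hp : IsType D l M) (r : ℕ) [hr : Fact r.Prime]

/-! ### the torus -/

/-- torus elements from characters -/
theorem exists_torHom {τ : MulAut ↥(D.group (KK r))} {e : ℕ} (hτ : IsFrob r e τ) {g : (Fin l → ℤ) ≃+ (Fin l → ℤ)}
    (F : Fr M.toCoxeterSystem hp.isCartan (TT D (KK r)) (XX D l (KK r)) τ g) {d : ℕ} {B : Fin l → Fin l → ℤ}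
    (hB : InvC D l d B) (hd : d ≠ 0) {j N : ℕ} [NeZero N] (f : Fin j → (Fin l → ℤ) →+ ℤ) (x : Fin j → Fin l → ℤ)
    (hdual : ∀ i i', f i (x i') = if i = i' then 1 else 0)
    (hf : ∀ i y, (N : ℤ) ∣ f i (g y) - (r ^ e : ℕ) * f i y) :
    ∃ φ : (Fin j → rootsOfUnity N (KK r)) →* ↥(D.group (KK r)), Function.Injective φ ∧
      ∀ c, φ c ∈ TT D (KK r) ∧ τ (φ c) = φ c := by
  classical
  let ch : (Fin j → rootsOfUnity N (KK r)) → (Fin l → ℤ) → KK r := fun c y => ∏ i, ((c i : (KK r)ˣ) : KK r) ^ f i y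
  have hch : ∀ c, IsMC (ch c) := by
    intro c
    constructor
    · show ∏ i, ((c i : (KK r)ˣ) : KK r) ^ f i 0 = 1
      refine Finset.prod_eq_one fun i _ => ?_
      rw [map_zero, zpow_zero]
    · intro y z
      show ∏ i, ((c i : (KK r)ˣ) : KK r) ^ f i (y + z) = (∏ i, ((c i : (KK r)ˣ) : KK r) ^ f i y) *
        ∏ i, ((c i : (KK r)ˣ) : KK r) ^ f i z
      rw [← Finset.prod_mul_distrib]
      refine Finset.prod_congr rfl fun i _ => ?_
      rw [map_add, zpow_add₀ (Units.ne_zero _)]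
  have hex : ∀ c, ∃ t ∈ TT D (KK r), ∀ y, cX hp t y = ch c y := fun c =>
    exists_cX hp hB hd (hch c) fun i => IsAlgClosed.exists_pow_nat_eq _ (Nat.pos_of_ne_zero hd)
  choose φ hφT hφ using hex
  have hmul : ∀ c c', φ (c * c') = φ c * φ c' := by
    intro c c'
    refine cX_inj hp (hφT _) (mul_mem (hφT _) (hφT _)) fun i => ?_
    rw [cX_mul hp (hφT _) (hφT _), hφ, hφ, hφ]
    show ∏ m, (((c * c') m : (KK r)ˣ) : KK r) ^ f m (sr i) = (∏ m, ((c m : (KK r)ˣ) : KK r) ^ f m (sr i)) *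
        ∏ m, ((c' m : (KK r)ˣ) : KK r) ^ f m (sr i)
    rw [← Finset.prod_mul_distrib]
    refine Finset.prod_congr rfl fun m _ => ?_
    rw [← mul_zpow]
    rfl
  refine ⟨MonoidHom.mk' φ hmul, ?_, fun c => ⟨hφT c, ?_⟩⟩
  · intro c c' h
    have h' : φ c = φ c' := h
    have hval : ∀ c : Fin j → rootsOfUnity N (KK r), ∀ i, cX hp (φ c) (x i) = ((c i : (KK r)ˣ) : KK r) := by
      intro c i
      rw [hφ]
      show ∏ m, ((c m : (KK r)ˣ) : KK r) ^ f m (x i) = _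
      rw [Finset.prod_eq_single i]
      · rw [hdual, if_pos rfl, zpow_one]
      · intro m _ hm
        rw [hdual, if_neg hm, zpow_zero]
      · intro hi
        exact absurd (Finset.mem_univ i) hi
    funext i
    refine Subtype.ext (Units.ext ?_)
    rw [← hval c i, ← hval c' i, h']
  · show τ (φ c) = φ c
    have hτT : τ (φ c) ∈ TT D (KK r) := (F.tor _).2 (hφT c)
    have key : ∀ y, cX hp (τ (φ c)) (g y) = cX hp (φ c) (g y) := by
      intro y
      rw [cX_sigma hp M.toCoxeterSystem hτ F (hφT c), hφ, hφ]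
      show (∏ m, ((c m : (KK r)ˣ) : KK r) ^ f m y) ^ r ^ e = ∏ m, ((c m : (KK r)ˣ) : KK r) ^ f m (g y)
      rw [← Finset.prod_pow]
      refine Finset.prod_congr rfl fun m _ => ?_
      obtain ⟨a, ha⟩ := hf m y
      have h1 : f m (g y) = f m y * (r ^ e : ℕ) + (N : ℤ) * a := by linear_combination ha
      rw [h1, zpow_add₀ (Units.ne_zero _), zpow_mul, zpow_mul, zpow_natCast, zpow_natCast]
      have h2 : ((c m : (KK r)ˣ) : KK r) ^ N = 1 := by
        have := (mem_rootsOfUnity _ _).1 (c m).2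
        rw [← Units.val_pow_eq_pow_val, this, Units.val_one]
      rw [h2, one_zpow, mul_one]
    refine cX_inj hp hτT (hφT c) fun i => ?_
    obtain ⟨y, hy⟩ := g.surjective (sr i)
    rw [← hy]
    exact key y

/-! ### the normaliser of the torus -/

variable {r}

/-- the represented element is unique -/
theorem nr_inj {d : ℕ} {B : Fin l → Fin l → ℤ} (hB : InvC D l d B) (hd : d ≠ 0) {v w : M.Group}
    {y : ↥(D.group (KK r))} (h1 : NR hp r v y) (h2 : NR hp r w y) : v = w := by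
  have hk := locFin r
  apply rep_injective M.toCoxeterSystem hp.isCartan
  apply LinearMap.ext
  intro x
  refine cX_sep hp (k := KK r) hB hd fun t ht => ?_
  have h3 : y⁻¹ * t * y ∈ TT D (KK r) := by
    have := rp_conj_mem hp hk h1.inv ht
    rwa [inv_inv] at this
  have h4 : y * (y⁻¹ * t * y) * y⁻¹ = t := by group
  have h5 := cX_rp' hp hk h1 h3 x
  have h6 := cX_rp' hp hk h2 h3 x
  rw [h4] at h5 h6
  rw [h5, h6]

variable (r) in
/-- `N(T)^τ` -/
def NT (τ : MulAut ↥(D.group (KK r))) : Subgroup ↥(D.group (KK r)) where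
  carrier := {y | (∃ w, NR hp r w y) ∧ τ y = y}
  one_mem' := ⟨⟨1, rp_one⟩, map_one τ⟩
  mul_mem' := by
    rintro a b ⟨⟨v, hv⟩, ha⟩ ⟨⟨w, hw⟩, hb⟩
    exact ⟨⟨v * w, hv.mul hw⟩, by rw [map_mul, ha, hb]⟩
  inv_mem' := by
    rintro a ⟨⟨v, hv⟩, ha⟩
    exact ⟨⟨v⁻¹, hv.inv⟩, by rw [map_inv, ha]⟩

variable {hp} in
theorem mem_NT {τ : MulAut ↥(D.group (KK r))} {y : ↥(D.group (KK r))} :
    y ∈ NT hp r τ ↔ (∃ w, NR hp r w y) ∧ τ y = y := Iff.rfl

/-- **The order of `N(T)^τ`.** -/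
theorem dvd_card_NT {τ : MulAut ↥(D.group (KK r))} {e : ℕ} (he : 0 < e) (hτ : IsFrob r e τ)
    {g : (Fin l → ℤ) ≃+ (Fin l → ℤ)}
    (F : Fr M.toCoxeterSystem hp.isCartan (TT D (KK r)) (XX D l (KK r)) τ g) {d : ℕ} {B : Fin l → Fin l → ℤ}
    (hB : InvC D l d B) (hd : d ≠ 0) {j N : ℕ} (hN : ¬ r ∣ N) (f : Fin j → (Fin l → ℤ) →+ ℤ)
    (x : Fin j → Fin l → ℤ) (hdual : ∀ i i', f i (x i') = if i = i' then 1 else 0)
    (hf : ∀ i y, (N : ℤ) ∣ f i (g y) - (r ^ e : ℕ) * f i y) (V : Subgroup M.Group)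
    (hV : ∀ v ∈ V, ∀ y, rep M.toCoxeterSystem hp.isCartan v (g y) = g (rep M.toCoxeterSystem hp.isCartan v y)) :
    N ^ j * Nat.card V ∣ Nat.card (NT hp r τ) := by
  classical
  have hk := locFin r
  have hNk : (N : KK r) ≠ 0 := by
    rw [Ne, CharP.cast_eq_zero_iff (KK r) r]
    exact hN
  have : NeZero (N : KK r) := ⟨hNk⟩
  have hN0 : N ≠ 0 := by rintro rfl; exact hN (dvd_zero r)
  have : NeZero N := ⟨hN0⟩
  obtain ⟨φ, hφi, hφ⟩ := exists_torHom hp r hτ F hB hd f x hdual hf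
  have hex : ∀ y : ↥(NT hp r τ), ∃ w, NR hp r w (y : ↥(D.group (KK r))) := fun y => y.2.1
  choose ρ₀ hρ₀ using hex
  let ρ : ↥(NT hp r τ) →* M.Group :=
    { toFun := ρ₀
      map_one' := nr_inj hp hB hd (hρ₀ 1) rp_one
      map_mul' := fun a b => nr_inj hp hB hd (hρ₀ (a * b)) ((hρ₀ a).mul (hρ₀ b)) }
  have hρ : ∀ y : ↥(NT hp r τ), NR hp r (ρ y) (y : ↥(D.group (KK r))) := hρ₀
  have h1 : Nat.card (Fin j → rootsOfUnity N (KK r)) = N ^ j := by
    rw [Nat.card_fun, HasEnoughRootsOfUnity.natCard_rootsOfUnity, Nat.card_eq_fintype_card, Fintype.card_fin]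
  have hTn : ∀ c, φ c ∈ NT hp r τ := fun c =>
    ⟨⟨1, rp_of_mem (by rw [TL_eq hp hk]; exact (hφ c).1)⟩, (hφ c).2⟩
  let φ' : (Fin j → rootsOfUnity N (KK r)) →* ↥ρ.ker :=
    MonoidHom.codRestrict (MonoidHom.codRestrict φ (NT hp r τ) hTn) ρ.ker (fun c => MonoidHom.mem_ker.2
      (nr_inj hp hB hd (hρ _) (rp_of_mem (by rw [TL_eq hp hk]; exact (hφ c).1))))
  have hφ'i : Function.Injective φ' := fun c c' h =>
    hφi (congrArg (fun y : ↥ρ.ker => ((y : ↥(NT hp r τ)) : ↥(D.group (KK r)))) h)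
  have h2 : N ^ j ∣ Nat.card ρ.ker := by
    rw [← h1]
    exact Subgroup.card_dvd_of_injective φ' hφ'i
  have h3 : V ≤ ρ.range := by
    intro v hv
    obtain ⟨m, hm, hmf⟩ := exists_fixed_lift hp hk hB hd he hτ F (hV v hv)
    exact ⟨⟨m, ⟨v, hm⟩, hmf⟩, nr_inj hp hB hd (hρ _) hm⟩
  have h4 : Nat.card V ∣ Nat.card ρ.range := Subgroup.card_dvd_of_le h3
  have h5 := ρ.ker.card_mul_index
  rw [Subgroup.index_ker] at h5
  rw [← h5]
  exact mul_dvd_mul h2 h4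

/-! ### the frame -/

variable {hp} {q : ℕ} {K₀ : Type v} [Group K₀]

/-- **Frames of the `p`-subgroups of `Y^σ`.** -/
theorem exists_frame (m : MData hp r q K₀) {p : ℕ} [Fact p.Prime] {d : ℕ} {B : Fin l → Fin l → ℤ}
    (hB : InvC D l d B) (hd : d ≠ 0) (w0 : M.Group) {g : (Fin l → ℤ) ≃+ (Fin l → ℤ)}
    (hg : ∀ y, g y = rep M.toCoxeterSystem hp.isCartan w0 (m.g y)) {j N : ℕ} (hN : ¬ r ∣ N)
    (f : Fin j → (Fin l → ℤ) →+ ℤ) (x : Fin j → Fin l → ℤ)
    (hdual : ∀ i i', f i (x i') = if i = i' then 1 else 0)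
    (hf : ∀ i y, (N : ℤ) ∣ f i (g y) - q * f i y) (V : Subgroup M.Group)
    (hV : ∀ v ∈ V, ∀ y, rep M.toCoxeterSystem hp.isCartan v (g y) = g (rep M.toCoxeterSystem hp.isCartan v y))
    {b : ℕ} (hb : p ^ b ∣ N ^ j * Nat.card V) (hG : ¬ p ^ (b + 1) ∣ Nat.card (fixedSubgroup m.σ))
    {E : Subgroup ↥(D.group (KK r))} (hE : IsPGroup p E) (hσ : ∀ y ∈ E, m.σ y = y) : ∃ z, NFrame m E z g := by
  classical
  have hk := locFin r
  have H := tow (k := KK r) hp M.toCoxeterSystem hk r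
  obtain ⟨n, hn⟩ := exists_rp M.toCoxeterSystem (tow (k := KK r) hp M.toCoxeterSystem hk r).nsys w0
  obtain ⟨z, hz⟩ := lang_all hp M.toCoxeterSystem m.he m.frob m.fr 1 n
  rw [map_one, one_mul] at hz
  obtain ⟨τ, hτdef⟩ : ∃ τ, τ = MulAut.conj (z⁻¹ * m.σ z) * m.σ := ⟨_, rfl⟩
  have hgeq : g = m.g.trans (repAut M.toCoxeterSystem hp.isCartan w0) := by
    apply AddEquiv.ext
    intro y
    rw [hg]
    rfl
  have Fτ : Fr M.toCoxeterSystem hp.isCartan (TT D (KK r)) (XX D l (KK r)) τ g := by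
    have h3 := Fr.conj H (w := w0) (g := n) hn
    rw [TL_eq hp hk, XL_eq hp hk] at h3
    have h4 := h3.mul m.fr
    rw [hτdef, hgeq, ← hz]
    exact h4
  have hτ : IsFrob r m.e τ := by
    rw [hτdef]
    exact m.frob.conj_mul _
  have hNT := dvd_card_NT hp m.he hτ Fτ hB hd hN f x hdual (by rw [m.hq]; exact hf) V hV
  -- conjugate into the fixed points
  have hfix : ∀ u, τ u = u ↔ m.σ (z * u * z⁻¹) = z * u * z⁻¹ := fun u => by
    rw [hτdef]
    exact frame_fix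
  have hfin := m.fin
  let c : ↥(NT hp r τ) →* ↥(fixedSubgroup m.σ) :=
    MonoidHom.codRestrict ((MulAut.conj z).toMonoidHom.comp (NT hp r τ).subtype) (fixedSubgroup m.σ)
      (fun u => (hfix _).1 u.2.2)
  have hc : Function.Injective c := by
    intro u u' h
    have h1 := congrArg (fun y : ↥(fixedSubgroup m.σ) => (y : ↥(D.group (KK r)))) h
    exact Subtype.ext ((MulAut.conj z).injective h1)
  have hcard : Nat.card (c.range) = Nat.card (NT hp r τ) :=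
    (Nat.card_congr (MonoidHom.ofInjective hc).toEquiv).symm
  have hEs : E ≤ fixedSubgroup m.σ := fun y hy => hσ y hy
  obtain ⟨y, hy⟩ := sylow_conj (N := c.range) (E := E.subgroupOf (fixedSubgroup m.σ)) (p := p) (b := b)
    (by rw [hcard]; exact hb.trans hNT) hG (hE.comap_subtype)
  have hyσ : m.σ (y : ↥(D.group (KK r))) = y := y.2
  refine ⟨y * z, ?_, fun u hu => ?_⟩
  · have h1 : (y * z)⁻¹ * m.σ (y * z) = z⁻¹ * m.σ z := by
      rw [map_mul, hyσ]
      group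
    rw [h1, ← hτdef]
    exact Fτ
  · obtain ⟨a, ha⟩ := hy ⟨u, hEs hu⟩ (Subgroup.mem_subgroupOf.2 hu)
    have h1 : z * (a : ↥(D.group (KK r))) * z⁻¹ = (y : ↥(D.group (KK r)))⁻¹ * u * y :=
      congrArg (fun y : ↥(fixedSubgroup m.σ) => (y : ↥(D.group (KK r)))) ha
    obtain ⟨w, hw⟩ := a.2.1
    refine ⟨w, ?_⟩
    have h2 : (y * z : ↥(D.group (KK r)))⁻¹ * u * (y * z) = a := by
      have : (y * z : ↥(D.group (KK r)))⁻¹ * u * (y * z) = z⁻¹ * ((y : ↥(D.group (KK r)))⁻¹ * u * y) * z := by group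
      rw [this, ← h1]
      group
    rw [h2]
    exact hw

end Cfsg.Agent.H900.Fra
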