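import Cfsg.Agent.H900.Fra.Gen
import Cfsg.Agent.H900.Fra.Cmp
import Cfsg.Agent.H900.Fra.Wey

/-!
# S2187, X4, M1: frames of the `p`-subgroups of `Y^σ` (helper900)

`m : MData hp r q K₀`, `E ≤ Y` a `p`-subgroup fixed by `m.σ`:

* `F4_three`, `E7_three`, `E8_three` : `p = 3`, `m.g = refl`, `3 ∣ q - ε` : a frame with `g = ε`;
* `E6_matched`, `TE6_matched` : `E₆`, `3 ∣ q - 1`, `g = 1`;  `²E₆`, `3 ∣ q + 1`, `g = -1`;
* `E6_unmatched`, `TE6_unmatched` : `E₆`, `3 ∣ q + 1`, `g = - rho6`; `²E₆`, `3 ∣ q - 1`, `g = rho6`;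
* `E8_five` : `p = 5`, `5 ∣ q - ε`, `g = ε`;  `E8_five_sq` : `5 ∣ q ^ 2 + 1`, `g ^ 2 = -1`.

In all of them `g` is any additive automorphism with the given values.
-/

set_option autoImplicit false
set_option linter.dupNamespace false
set_option linter.unusedSectionVars false

namespace Cfsg.Agent.H900.Fra

open CoxeterSystem Cfsg Cfsg.Lie Cfsg.Lie.ChevalleyDatum
open Cfsg.Agent.ChevalleyStructure Cfsg.Agent.ChevalleyStructure.Elts Cfsg.Agent.ChevalleyStructure.CoxeterGeom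
  Cfsg.Agent.ChevalleyStructure.CoxeterGeomTypes Cfsg.Agent.ChevalleyStructure.NPerm
open Cfsg.Agent.Tits.Roots Cfsg.Agent.Tits.Core Cfsg.Agent.Nodes Cfsg.Agent.Nodes.Reps Cfsg.Agent.Nodes.BNOf
  Cfsg.Agent.Nodes.SubComb Cfsg.Agent.Nodes.RGDChev Cfsg.Agent.Nodes.Bruhat Cfsg.Agent.Nodes.Coroot
open Cfsg.Agent.KFacts.RgdField Cfsg.Agent.KFacts.RgdChevCoord
open Cfsg.Agent.BpExc Cfsg.Agent.BpExc.TorCent Cfsg.Agent.BpExc.TorChev Cfsg.Agent.BpExc.Tow
  Cfsg.Agent.BpExc.TowChev Cfsg.Agent.BpExc.Fr Cfsg.Agent.BpExc.LangFr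
open Cfsg.Agent.H469.Exc Cfsg.Agent.H316.U6 Cfsg.Agent.H818.Mono Cfsg.Agent.H795.LangT
open Cfsg.Agent.H129.TorusChar Cfsg.Agent.H720.TwFr

universe v

/-! ### valuations -/

section Arith

variable {p : ℕ} [hp : Fact p.Prime]

/-- the `p`-part of `n ≠ 0` is `p ^ a` -/
def Vp (p n a : ℕ) : Prop := n ≠ 0 ∧ padicValNat p n = a

theorem Vp.mul {n m a b : ℕ} (h : Vp p n a) (h' : Vp p m b) : Vp p (n * m) (a + b) :=
  ⟨mul_ne_zero h.1 h'.1, by rw [padicValNat.mul h.1 h'.1, h.2, h'.2]⟩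

theorem Vp.not_dvd {n a : ℕ} (h : Vp p n a) : ¬ p ^ (a + 1) ∣ n := by
  rw [padicValNat_dvd_iff_le h.1, h.2]
  omega

theorem Vp.dvd {n a : ℕ} (h : Vp p n a) : p ^ a ∣ n := by
  rw [padicValNat_dvd_iff_le h.1, h.2]

theorem Vp.of_ne {n : ℕ} (h : n ≠ 0) : Vp p n (padicValNat p n) := ⟨h, rfl⟩

theorem Vp.zero {n : ℕ} (h : ¬ p ∣ n) : Vp p n 0 :=
  ⟨fun h0 => h (by rw [h0]; exact dvd_zero p), padicValNat.eq_zero_of_not_dvd h⟩

theorem Vp.pow_zero {n : ℕ} (h : ¬ p ∣ n) (k : ℕ) : Vp p (n ^ k) 0 :=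
  Vp.zero fun h1 => h (hp.out.dvd_of_dvd_pow h1)

theorem not_dvd_of_pred {q : ℕ} (hq : 1 ≤ q) (h : p ∣ q - 1) : ¬ p ∣ q := fun h1 => by
  have h2 := (Nat.dvd_sub_iff_right hq h1).1 h
  exact hp.out.one_lt.ne' (Nat.dvd_one.1 h2)

theorem not_dvd_of_succ {q : ℕ} (h : p ∣ q + 1) : ¬ p ∣ q := fun h1 => by
  have h2 := (Nat.dvd_add_right h1).1 h
  exact hp.out.one_lt.ne' (Nat.dvd_one.1 h2)

/-- `q ^ n - 1`, `p ∣ q - 1` -/
theorem Vp.sub {q v : ℕ} (hp2 : Odd p) (hq : 1 < q) (h : p ∣ q - 1) (hv : Vp p (q - 1) v) {n c : ℕ} (hn : n ≠ 0)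
    (hc : padicValNat p n = c) : Vp p (q ^ n - 1) (v + c) := by
  refine ⟨(Nat.sub_pos_of_lt (Nat.one_lt_pow hn hq)).ne', ?_⟩
  have h1 := padicValNat.pow_sub_pow hp2 hq h (not_dvd_of_pred hq.le h) hn
  rw [one_pow] at h1
  rw [h1, hv.2, hc]

/-- `q ^ (2 n) - 1`, `p ∣ q + 1` -/
theorem Vp.even {q v : ℕ} (hp2 : Odd p) (hq : 1 < q) (h : p ∣ q + 1) (hv : Vp p (q + 1) v) {n m c : ℕ} (hm : m = 2 * n)
    (hn : n ≠ 0) (hc : padicValNat p n = c) : Vp p (q ^ m - 1) (v + c) := by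
  have h2 : q ^ 2 - 1 = (q + 1) * (q - 1) := by
    have := Nat.sq_sub_sq q 1
    rwa [one_pow] at this
  have h3 : ¬ p ∣ q - 1 := fun h3 => by
    have h4 : p ∣ 2 := by
      have h5 : q + 1 = (q - 1) + 2 := by omega
      rw [h5] at h
      exact (Nat.dvd_add_right h3).1 h
    have h5 := (Nat.prime_dvd_prime_iff_eq hp.out Nat.prime_two).1 h4
    rw [h5] at hp2
    exact absurd hp2 (by decide)
  have h4 : Vp p (q ^ 2 - 1) v := by
    rw [h2]
    have := hv.mul (Vp.zero h3)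
    rwa [add_zero] at this
  rw [hm, pow_mul]
  exact Vp.sub hp2 (Nat.one_lt_pow (by norm_num) hq) (by rw [h2]; exact h.mul_right _) h4 hn hc

/-- `q ^ n + 1`, `p ∣ q + 1`, `n` odd -/
theorem Vp.add {q v : ℕ} (hp2 : Odd p) (h : p ∣ q + 1) (hv : Vp p (q + 1) v) {n c : ℕ} (hn : Odd n)
    (hc : padicValNat p n = c) : Vp p (q ^ n + 1) (v + c) := by
  refine ⟨Nat.succ_ne_zero _, ?_⟩
  have h1 := padicValNat.pow_add_pow (p := p) (x := q) (y := 1) hp2 h (not_dvd_of_succ h) hn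
  rw [one_pow] at h1
  rw [h1, hv.2, hc]

/-- `q ^ n - 1`, `p ∣ q + 1`, `n` odd -/
theorem Vp.odd {q : ℕ} (hp2 : Odd p) (hq : 1 < q) (h : p ∣ q + 1) {n : ℕ} (hn : Odd n) : Vp p (q ^ n - 1) 0 := by
  refine Vp.zero fun h1 => ?_
  have h2 : (p : ℤ) ∣ (q : ℤ) ^ n + 1 := by
    have h3 : (q : ℤ) + 1 ∣ (q : ℤ) ^ n + 1 := by
      have := Odd.add_dvd_pow_add_pow (q : ℤ) 1 hn
      rwa [one_pow] at this
    refine dvd_trans ?_ h3
    exact_mod_cast h
  have h3 : (p : ℤ) ∣ (q : ℤ) ^ n - 1 := by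
    have h4 : ((q ^ n - 1 : ℕ) : ℤ) = (q : ℤ) ^ n - 1 := by
      rw [Nat.cast_sub (Nat.one_le_pow _ _ (by omega)), Nat.cast_pow, Nat.cast_one]
    rw [← h4]
    exact_mod_cast h1
  have h4 : (p : ℤ) ∣ 2 := by
    have := dvd_sub h2 h3
    have e : (q : ℤ) ^ n + 1 - ((q : ℤ) ^ n - 1) = 2 := by ring
    rwa [e] at this
  have h5 : p ∣ 2 := by exact_mod_cast h4
  have h6 := (Nat.prime_dvd_prime_iff_eq hp.out Nat.prime_two).1 h5
  rw [h6] at hp2
  exact absurd hp2 (by decide)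

/-- `q ^ n + 1`, `p ∣ q - 1` -/
theorem Vp.plus {q : ℕ} (hp2 : Odd p) (hq : 1 < q) (h : p ∣ q - 1) (n : ℕ) : Vp p (q ^ n + 1) 0 := by
  refine Vp.zero fun h1 => ?_
  have h2 : p ∣ q ^ n - 1 := by
    have h3 := Nat.sub_dvd_pow_sub_pow q 1 n
    rw [one_pow] at h3
    exact h.trans h3
  have h3 : q ^ n + 1 = (q ^ n - 1) + 2 := by
    have := Nat.one_le_pow n q (by omega)
    omega
  rw [h3] at h1
  have h5 := (Nat.dvd_add_right h2).1 h1
  have h6 := (Nat.prime_dvd_prime_iff_eq hp.out Nat.prime_two).1 h5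
  rw [h6] at hp2
  exact absurd hp2 (by decide)

/-- `q ^ (4 n) - 1`, `p ∣ q ^ 2 + 1` -/
theorem Vp.four {q v : ℕ} (hp2 : Odd p) (hq : 1 < q) (h : p ∣ q ^ 2 + 1) (hv : Vp p (q ^ 2 + 1) v) {n m c : ℕ}
    (hm : m = 4 * n) (hn : n ≠ 0) (hc : padicValNat p n = c) : Vp p (q ^ m - 1) (v + c) := by
  have h1 : q ^ m = (q ^ 2) ^ (2 * n) := by
    rw [hm, ← pow_mul]
    congr 1
    ring
  rw [h1]
  exact Vp.even hp2 (Nat.one_lt_pow (by norm_num) hq) h hv rfl hn hc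

/-- `q ^ (4 n + 2) - 1`, `p ∣ q ^ 2 + 1` -/
theorem Vp.two {q : ℕ} (hp2 : Odd p) (hq : 1 < q) (h : p ∣ q ^ 2 + 1) {n m : ℕ} (hm : m = 2 * (2 * n + 1)) :
    Vp p (q ^ m - 1) 0 := by
  rw [hm, pow_mul]
  exact Vp.odd hp2 (Nat.one_lt_pow (by norm_num) hq) h (odd_two_mul_add_one n)

end Arith

/-- the basis vectors, computable -/
def toFnBas {l : ℕ} (i : Fin l) : Fin l → ℤ := fun j => if j = i then 1 else 0

theorem sr_toFnBas {l : ℕ} (i : Fin l) : (sr i : Fin l → ℤ) = toFnBas i := by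
  funext j
  unfold toFnBas
  by_cases h : j = i
  · rw [if_pos h, h, sr_self]
  · rw [if_neg h, sr_ne h]

/-! ### the general rows -/

section Rows

variable {D : ChevalleyDatum} {l : ℕ} {M : CoxeterMatrix (Fin l)} {hp : IsType D l M} {r : ℕ} [hr : Fact r.Prime]
  {q : ℕ} {K₀ : Type v} [Group K₀]

theorem MData_one_lt (m : MData hp r q K₀) : 1 < q := by
  rw [← m.hq]
  exact Nat.one_lt_pow m.he.ne' hr.out.one_lt

theorem MData_dvd (m : MData hp r q K₀) : r ∣ q := by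
  rw [← m.hq]
  exact dvd_pow_self r m.he.ne'

/-- `N` with `N = q - ε` is prime to `r` -/
theorem not_dvd_N (m : MData hp r q K₀) {ε : ℤ} (hε : ε = 1 ∨ ε = -1) {N : ℕ} (hN : (N : ℤ) = q - ε) : ¬ r ∣ N := by
  intro h
  have h1 : (r : ℤ) ∣ (N : ℤ) := by exact_mod_cast h
  have h2 : (r : ℤ) ∣ (q : ℤ) := by exact_mod_cast MData_dvd m
  rw [hN] at h1
  have h3 : (r : ℤ) ∣ ε := by
    have := dvd_sub h2 h1
    rwa [sub_sub_cancel] at this
  have h4 : (r : ℤ) ∣ 1 := by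
    rcases hε with rfl | rfl
    · exact h3
    · exact (dvd_neg.1 h3)
  exact hr.out.one_lt.ne' (Nat.dvd_one.1 (by exact_mod_cast h4))

/-- `g = ± 1` -/
theorem frame_pm (m : MData hp r q K₀) {p : ℕ} [Fact p.Prime] {d : ℕ} {B : Fin l → Fin l → ℤ} (hB : InvC D l d B)
    (hd : d ≠ 0) {ε : ℤ} (hε : ε = 1 ∨ ε = -1) (w0 : M.Group)
    (hw0 : ∀ y, rep M.toCoxeterSystem hp.isCartan w0 (m.g y) = ε • y) {N : ℕ} (hN : (N : ℤ) = q - ε)
    {g : (Fin l → ℤ) ≃+ (Fin l → ℤ)} (hg : ∀ y, g y = ε • y) {v c n : ℕ} (hv : p ^ v ∣ N)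
    (hc : p ^ c ∣ Nat.card M.Group) (hG : Nat.card (fixedSubgroup m.σ) ∣ n) (hn : ¬ p ^ (l * v + c + 1) ∣ n)
    {E : Subgroup ↥(D.group (KK r))} (hE : IsPGroup p E) (hσ : ∀ y ∈ E, m.σ y = y) : ∃ z, NFrame m E z g := by
  refine exists_frame m hB hd w0 (j := l) (N := N) (fun y => by rw [hg, hw0]) (not_dvd_N m hε hN)
    (fun i => Pi.evalAddMonoidHom (fun _ => ℤ) i) (fun i => sr i) ?_ ?_ ⊤ ?_ (b := l * v + c) ?_
    (fun h => hn (h.trans hG)) hE hσ
  · intro i i'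
    show (sr i' : Fin l → ℤ) i = _
    by_cases h : i = i'
    · rw [if_pos h, h, sr_self]
    · rw [if_neg h, sr_ne h]
  · intro i y
    show (N : ℤ) ∣ g y i - q * y i
    rw [hg]
    refine ⟨-y i, ?_⟩
    show ε * y i - q * y i = N * -y i
    rw [hN]
    ring
  · intro v _ y
    rw [hg, hg, map_zsmul]
  · rw [pow_add, mul_comm l v, pow_mul, Nat.card_congr Subgroup.topEquiv.toEquiv]
    exact mul_dvd_mul (pow_dvd_pow_of_dvd hv l) hc

/-- `m.g = 1`, `-1 ∈ W`, `g = ± 1` -/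
theorem frame_refl (m : MData hp r q K₀) {p : ℕ} [Fact p.Prime] {d : ℕ} {B : Fin l → Fin l → ℤ} (hB : InvC D l d B)
    (hd : d ≠ 0) (hm : m.g = AddEquiv.refl _) (hneg : ∃ w : M.Group, ∀ x, rep M.toCoxeterSystem hp.isCartan w x = -x)
    {ε : ℤ} (hε : ε = 1 ∨ ε = -1) (hpε : (p : ℤ) ∣ q - ε)
    {g : (Fin l → ℤ) ≃+ (Fin l → ℤ)} (hg : ∀ y, g y = ε • y) {c n : ℕ}
    (hc : p ^ c ∣ Nat.card M.Group) (hG : Nat.card (fixedSubgroup m.σ) ∣ n)
    (h1 : ∀ v, p ∣ q - 1 → Vp p (q - 1) v → Vp p n (l * v + c))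
    (h2 : ∀ v, p ∣ q + 1 → Vp p (q + 1) v → Vp p n (l * v + c))
    {E : Subgroup ↥(D.group (KK r))} (hE : IsPGroup p E) (hσ : ∀ y ∈ E, m.σ y = y) : ∃ z, NFrame m E z g := by
  have hq := MData_one_lt m
  rcases hε with rfl | rfl
  · have e : ((q - 1 : ℕ) : ℤ) = q - 1 := by
      rw [Nat.cast_sub hq.le, Nat.cast_one]
    have hd1 : p ∣ q - 1 := by
      rw [← e] at hpε
      exact_mod_cast hpε
    have h3 := h1 _ hd1 (Vp.of_ne (Nat.sub_pos_of_lt hq).ne')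
    exact frame_pm m hB hd (Or.inl rfl) 1 (fun y => by
      rw [map_one, Module.End.one_apply, hm, one_smul]; rfl) e hg pow_padicValNat_dvd hc hG h3.not_dvd hE hσ
  · have e : ((q + 1 : ℕ) : ℤ) = q - (-1) := by
      rw [Nat.cast_add, Nat.cast_one, sub_neg_eq_add]
    have hd1 : p ∣ q + 1 := by
      rw [← e] at hpε
      exact_mod_cast hpε
    have h3 := h2 _ hd1 (Vp.of_ne (Nat.succ_ne_zero q))
    obtain ⟨w0, hw0⟩ := hneg
    exact frame_pm m hB hd (Or.inr rfl) w0 (fun y => by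
      rw [hw0, hm, neg_smul, one_smul]; rfl) e hg pow_padicValNat_dvd hc hG h3.not_dvd hE hσ

end Rows

/-! ### `F₄`, `E₇`, `E₈`, and `p = 5`, `E₈` -/

section Inst

variable {r : ℕ} [hr : Fact r.Prime] {q : ℕ} {K₀ : Type v} [Group K₀]

/-- `F₄`, `p = 3` -/
theorem F4_three {M : CoxeterMatrix (Fin 4)} {hp : IsType chevF4 4 M} (m : MData hp r q K₀)
    (hm : m.g = AddEquiv.refl _) {ε : ℤ} (hε : ε = 1 ∨ ε = -1) (h3 : (3 : ℤ) ∣ q - ε)
    {g : (Fin 4 → ℤ) ≃+ (Fin 4 → ℤ)} (hg : ∀ y, g y = ε • y) {E : Subgroup ↥(chevF4.group (KK r))}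
    (hE : IsPGroup 3 E) (hσ : ∀ y ∈ E, m.σ y = y) : ∃ z, NFrame m E z g := by
  have : Fact (Nat.Prime 3) := ⟨Nat.prime_three⟩
  have hq := MData_one_lt m
  have h3o : Odd 3 := by decide
  refine frame_refl m invC_F4 (by norm_num) hm (neg_F4 hp) hε (p := 3) (by exact_mod_cast h3) hg (c := 2)
    (by rw [card_M_F4 hp]; norm_num) (card_F4 m hm) ?_ ?_ hE hσ
  · intro v hd hv
    have h1 := ((((Vp.pow_zero (not_dvd_of_pred hq.le hd) 24).mul
      (Vp.sub h3o hq hd hv (n := 2) (c := 0) (by norm_num) (by decide +kernel))).mul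
      (Vp.sub h3o hq hd hv (n := 6) (c := 1) (by norm_num) (by decide +kernel))).mul
      (Vp.sub h3o hq hd hv (n := 8) (c := 0) (by norm_num) (by decide +kernel))).mul
      (Vp.sub h3o hq hd hv (n := 12) (c := 1) (by norm_num) (by decide +kernel))
    have e : 0 + (v + 0) + (v + 1) + (v + 0) + (v + 1) = 4 * v + 2 := by ring
    rwa [e] at h1
  · intro v hd hv
    have h1 := ((((Vp.pow_zero (not_dvd_of_succ hd) 24).mul
      (Vp.even h3o hq hd hv (m := 2) (n := 1) (c := 0) rfl (by norm_num) (by decide +kernel))).mul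
      (Vp.even h3o hq hd hv (m := 6) (n := 3) (c := 1) rfl (by norm_num) (by decide +kernel))).mul
      (Vp.even h3o hq hd hv (m := 8) (n := 4) (c := 0) rfl (by norm_num) (by decide +kernel))).mul
      (Vp.even h3o hq hd hv (m := 12) (n := 6) (c := 1) rfl (by norm_num) (by decide +kernel))
    have e : 0 + (v + 0) + (v + 1) + (v + 0) + (v + 1) = 4 * v + 2 := by ring
    rwa [e] at h1

theorem E7_three {M : CoxeterMatrix (Fin 7)} {hp : IsType chevE7 7 M} (m : MData hp r q K₀)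
    (hm : m.g = AddEquiv.refl _) {ε : ℤ} (hε : ε = 1 ∨ ε = -1) (h3 : (3 : ℤ) ∣ q - ε)
    {g : (Fin 7 → ℤ) ≃+ (Fin 7 → ℤ)} (hg : ∀ y, g y = ε • y) {E : Subgroup ↥(chevE7.group (KK r))}
    (hE : IsPGroup 3 E) (hσ : ∀ y ∈ E, m.σ y = y) : ∃ z, NFrame m E z g := by
  have : Fact (Nat.Prime 3) := ⟨Nat.prime_three⟩
  have hq := MData_one_lt m
  have h3o : Odd 3 := by decide
  refine frame_refl m invC_E7 (by norm_num) hm (neg_E7 hp) hε (p := 3) (by exact_mod_cast h3) hg (c := 4)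
    (by rw [card_M_E7 hp]; norm_num) (card_E7 m hm) ?_ ?_ hE hσ
  · intro v hd hv
    have h1 := (((((((Vp.pow_zero (not_dvd_of_pred hq.le hd) 63).mul
      (Vp.sub h3o hq hd hv (n := 2) (c := 0) (by norm_num) (by decide +kernel))).mul
      (Vp.sub h3o hq hd hv (n := 6) (c := 1) (by norm_num) (by decide +kernel))).mul
      (Vp.sub h3o hq hd hv (n := 8) (c := 0) (by norm_num) (by decide +kernel))).mul
      (Vp.sub h3o hq hd hv (n := 10) (c := 0) (by norm_num) (by decide +kernel))).mul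
      (Vp.sub h3o hq hd hv (n := 12) (c := 1) (by norm_num) (by decide +kernel))).mul
      (Vp.sub h3o hq hd hv (n := 14) (c := 0) (by norm_num) (by decide +kernel))).mul
      (Vp.sub h3o hq hd hv (n := 18) (c := 2) (by norm_num) (by decide +kernel))
    have e : 0 + (v + 0) + (v + 1) + (v + 0) + (v + 0) + (v + 1) + (v + 0) + (v + 2) = 7 * v + 4 := by ring
    rwa [e] at h1
  · intro v hd hv
    have h1 := (((((((Vp.pow_zero (not_dvd_of_succ hd) 63).mul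
      (Vp.even h3o hq hd hv (m := 2) (n := 1) (c := 0) rfl (by norm_num) (by decide +kernel))).mul
      (Vp.even h3o hq hd hv (m := 6) (n := 3) (c := 1) rfl (by norm_num) (by decide +kernel))).mul
      (Vp.even h3o hq hd hv (m := 8) (n := 4) (c := 0) rfl (by norm_num) (by decide +kernel))).mul
      (Vp.even h3o hq hd hv (m := 10) (n := 5) (c := 0) rfl (by norm_num) (by decide +kernel))).mul
      (Vp.even h3o hq hd hv (m := 12) (n := 6) (c := 1) rfl (by norm_num) (by decide +kernel))).mul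
      (Vp.even h3o hq hd hv (m := 14) (n := 7) (c := 0) rfl (by norm_num) (by decide +kernel))).mul
      (Vp.even h3o hq hd hv (m := 18) (n := 9) (c := 2) rfl (by norm_num) (by decide +kernel))
    have e : 0 + (v + 0) + (v + 1) + (v + 0) + (v + 0) + (v + 1) + (v + 0) + (v + 2) = 7 * v + 4 := by ring
    rwa [e] at h1

theorem E8_three {M : CoxeterMatrix (Fin 8)} {hp : IsType chevE8 8 M} (m : MData hp r q K₀)
    (hm : m.g = AddEquiv.refl _) {ε : ℤ} (hε : ε = 1 ∨ ε = -1) (h3 : (3 : ℤ) ∣ q - ε)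
    {g : (Fin 8 → ℤ) ≃+ (Fin 8 → ℤ)} (hg : ∀ y, g y = ε • y) {E : Subgroup ↥(chevE8.group (KK r))}
    (hE : IsPGroup 3 E) (hσ : ∀ y ∈ E, m.σ y = y) : ∃ z, NFrame m E z g := by
  have : Fact (Nat.Prime 3) := ⟨Nat.prime_three⟩
  have hq := MData_one_lt m
  have h3o : Odd 3 := by decide
  refine frame_refl m invC_E8 (by norm_num) hm (neg_E8 hp) hε (p := 3) (by exact_mod_cast h3) hg (c := 5)
    (by rw [card_M_E8 hp]; norm_num) (card_E8 m hm) ?_ ?_ hE hσ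
  · intro v hd hv
    have h1 := ((((((((Vp.pow_zero (not_dvd_of_pred hq.le hd) 120).mul
      (Vp.sub h3o hq hd hv (n := 2) (c := 0) (by norm_num) (by decide +kernel))).mul
      (Vp.sub h3o hq hd hv (n := 8) (c := 0) (by norm_num) (by decide +kernel))).mul
      (Vp.sub h3o hq hd hv (n := 12) (c := 1) (by norm_num) (by decide +kernel))).mul
      (Vp.sub h3o hq hd hv (n := 14) (c := 0) (by norm_num) (by decide +kernel))).mul
      (Vp.sub h3o hq hd hv (n := 18) (c := 2) (by norm_num) (by decide +kernel))).mul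
      (Vp.sub h3o hq hd hv (n := 20) (c := 0) (by norm_num) (by decide +kernel))).mul
      (Vp.sub h3o hq hd hv (n := 24) (c := 1) (by norm_num) (by decide +kernel))).mul
      (Vp.sub h3o hq hd hv (n := 30) (c := 1) (by norm_num) (by decide +kernel))
    have e : 0 + (v + 0) + (v + 0) + (v + 1) + (v + 0) + (v + 2) + (v + 0) + (v + 1) + (v + 1) = 8 * v + 5 := by ring
    rwa [e] at h1
  · intro v hd hv
    have h1 := ((((((((Vp.pow_zero (not_dvd_of_succ hd) 120).mul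
      (Vp.even h3o hq hd hv (m := 2) (n := 1) (c := 0) rfl (by norm_num) (by decide +kernel))).mul
      (Vp.even h3o hq hd hv (m := 8) (n := 4) (c := 0) rfl (by norm_num) (by decide +kernel))).mul
      (Vp.even h3o hq hd hv (m := 12) (n := 6) (c := 1) rfl (by norm_num) (by decide +kernel))).mul
      (Vp.even h3o hq hd hv (m := 14) (n := 7) (c := 0) rfl (by norm_num) (by decide +kernel))).mul
      (Vp.even h3o hq hd hv (m := 18) (n := 9) (c := 2) rfl (by norm_num) (by decide +kernel))).mul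
      (Vp.even h3o hq hd hv (m := 20) (n := 10) (c := 0) rfl (by norm_num) (by decide +kernel))).mul
      (Vp.even h3o hq hd hv (m := 24) (n := 12) (c := 1) rfl (by norm_num) (by decide +kernel))).mul
      (Vp.even h3o hq hd hv (m := 30) (n := 15) (c := 1) rfl (by norm_num) (by decide +kernel))
    have e : 0 + (v + 0) + (v + 0) + (v + 1) + (v + 0) + (v + 2) + (v + 0) + (v + 1) + (v + 1) = 8 * v + 5 := by ring
    rwa [e] at h1

theorem E8_five {M : CoxeterMatrix (Fin 8)} {hp : IsType chevE8 8 M} (m : MData hp r q K₀)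
    (hm : m.g = AddEquiv.refl _) {ε : ℤ} (hε : ε = 1 ∨ ε = -1) (h5 : (5 : ℤ) ∣ q - ε)
    {g : (Fin 8 → ℤ) ≃+ (Fin 8 → ℤ)} (hg : ∀ y, g y = ε • y) {E : Subgroup ↥(chevE8.group (KK r))}
    (hE : IsPGroup 5 E) (hσ : ∀ y ∈ E, m.σ y = y) : ∃ z, NFrame m E z g := by
  have : Fact (Nat.Prime 5) := ⟨Nat.prime_five⟩
  have hq := MData_one_lt m
  have h5o : Odd 5 := by decide
  refine frame_refl m invC_E8 (by norm_num) hm (neg_E8 hp) hε (p := 5) (by exact_mod_cast h5) hg (c := 2)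
    (by rw [card_M_E8 hp]; norm_num) (card_E8 m hm) ?_ ?_ hE hσ
  · intro v hd hv
    have h1 := ((((((((Vp.pow_zero (not_dvd_of_pred hq.le hd) 120).mul
      (Vp.sub h5o hq hd hv (n := 2) (c := 0) (by norm_num) (by decide +kernel))).mul
      (Vp.sub h5o hq hd hv (n := 8) (c := 0) (by norm_num) (by decide +kernel))).mul
      (Vp.sub h5o hq hd hv (n := 12) (c := 0) (by norm_num) (by decide +kernel))).mul
      (Vp.sub h5o hq hd hv (n := 14) (c := 0) (by norm_num) (by decide +kernel))).mul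
      (Vp.sub h5o hq hd hv (n := 18) (c := 0) (by norm_num) (by decide +kernel))).mul
      (Vp.sub h5o hq hd hv (n := 20) (c := 1) (by norm_num) (by decide +kernel))).mul
      (Vp.sub h5o hq hd hv (n := 24) (c := 0) (by norm_num) (by decide +kernel))).mul
      (Vp.sub h5o hq hd hv (n := 30) (c := 1) (by norm_num) (by decide +kernel))
    have e : 0 + (v + 0) + (v + 0) + (v + 0) + (v + 0) + (v + 0) + (v + 1) + (v + 0) + (v + 1) = 8 * v + 2 := by ring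
    rwa [e] at h1
  · intro v hd hv
    have h1 := ((((((((Vp.pow_zero (not_dvd_of_succ hd) 120).mul
      (Vp.even h5o hq hd hv (m := 2) (n := 1) (c := 0) rfl (by norm_num) (by decide +kernel))).mul
      (Vp.even h5o hq hd hv (m := 8) (n := 4) (c := 0) rfl (by norm_num) (by decide +kernel))).mul
      (Vp.even h5o hq hd hv (m := 12) (n := 6) (c := 0) rfl (by norm_num) (by decide +kernel))).mul
      (Vp.even h5o hq hd hv (m := 14) (n := 7) (c := 0) rfl (by norm_num) (by decide +kernel))).mul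
      (Vp.even h5o hq hd hv (m := 18) (n := 9) (c := 0) rfl (by norm_num) (by decide +kernel))).mul
      (Vp.even h5o hq hd hv (m := 20) (n := 10) (c := 1) rfl (by norm_num) (by decide +kernel))).mul
      (Vp.even h5o hq hd hv (m := 24) (n := 12) (c := 0) rfl (by norm_num) (by decide +kernel))).mul
      (Vp.even h5o hq hd hv (m := 30) (n := 15) (c := 1) rfl (by norm_num) (by decide +kernel))
    have e : 0 + (v + 0) + (v + 0) + (v + 0) + (v + 0) + (v + 0) + (v + 1) + (v + 0) + (v + 1) = 8 * v + 2 := by ring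
    rwa [e] at h1

/-- **`E₈`, `p = 5`, `5 ∣ q ^ 2 + 1`.** -/
theorem E8_five_sq {M : CoxeterMatrix (Fin 8)} {hp : IsType chevE8 8 M} (m : MData hp r q K₀)
    (hm : m.g = AddEquiv.refl _) (h5 : 5 ∣ q ^ 2 + 1) :
    ∃ w0 : M.Group, (∀ y, repAut M.toCoxeterSystem hp.isCartan w0 (repAut M.toCoxeterSystem hp.isCartan w0 y) = -y) ∧
      ∀ {E : Subgroup ↥(chevE8.group (KK r))}, IsPGroup 5 E → (∀ y ∈ E, m.σ y = y) →
        ∃ z, NFrame m E z (repAut M.toCoxeterSystem hp.isCartan w0) := by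
  have : Fact (Nat.Prime 5) := ⟨Nat.prime_five⟩
  have hq := MData_one_lt m
  have h5o : Odd 5 := by decide
  obtain ⟨w, V, hw, hV, hVw, ha, hb⟩ := sqrt_E8 hp
  refine ⟨w, hw, fun {E} hE hσ => ?_⟩
  obtain ⟨v, hv⟩ : ∃ v, Vp 5 (q ^ 2 + 1) v := ⟨_, Vp.of_ne (Nat.succ_ne_zero _)⟩
  have hnq : ¬ 5 ∣ q := fun h => not_dvd_of_succ h5 (h.trans (dvd_pow_self q (by norm_num)))
  have h1 := ((((((((Vp.pow_zero hnq 120).mul
      (Vp.two h5o hq h5 (n := 0) (m := 2) rfl)).mul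
      (Vp.four h5o hq h5 hv (m := 8) (n := 2) (c := 0) rfl (by norm_num) (by decide +kernel))).mul
      (Vp.four h5o hq h5 hv (m := 12) (n := 3) (c := 0) rfl (by norm_num) (by decide +kernel))).mul
      (Vp.two h5o hq h5 (n := 3) (m := 14) rfl)).mul
      (Vp.two h5o hq h5 (n := 4) (m := 18) rfl)).mul
      (Vp.four h5o hq h5 hv (m := 20) (n := 5) (c := 1) rfl (by norm_num) (by decide +kernel))).mul
      (Vp.four h5o hq h5 hv (m := 24) (n := 6) (c := 0) rfl (by norm_num) (by decide +kernel))).mul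
      (Vp.two h5o hq h5 (n := 7) (m := 30) rfl)
  have e : 0 + 0 + (v + 0) + (v + 0) + 0 + 0 + (v + 1) + (v + 0) + 0 = 4 * v + 1 := by ring
  rw [e] at h1
  refine exists_frame m invC_E8 (by norm_num) w (j := 4) (N := q ^ 2 + 1) (fun y => by rw [hm]; rfl) ?_
    (fun i => lin (aF i) + (q : ℤ) • lin (bF i)) (fun i => sr (Fin.castLE (by norm_num) i)) ?_ ?_ V ?_ (b := 4 * v + 1)
    ?_ (fun h => h1.not_dvd (h.trans (card_E8 m hm))) hE hσ
  · intro h
    have h2 : r ∣ q ^ 2 := (MData_dvd m).trans (dvd_pow_self q (by norm_num))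
    exact hr.out.one_lt.ne' (Nat.dvd_one.1 ((Nat.dvd_add_right h2).1 h))
  · intro i i'
    have h2 : ∀ i i' : Fin 4, (∑ j, aF i j * toFnBas (Fin.castLE (by norm_num : 4 ≤ 8) i') j) =
        if i = i' then 1 else 0 := by decide +kernel
    have h3 : ∀ i i' : Fin 4, (∑ j, bF i j * toFnBas (Fin.castLE (by norm_num : 4 ≤ 8) i') j) = 0 := by
      decide +kernel
    show lin (aF i) (sr _) + (q : ℤ) • lin (bF i) (sr _) = _
    rw [lin_apply, lin_apply, sr_toFnBas, h2, h3, smul_zero, add_zero]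
  · intro i y
    show ((q ^ 2 + 1 : ℕ) : ℤ) ∣ lin (aF i) (rep M.toCoxeterSystem hp.isCartan w y) +
      (q : ℤ) • lin (bF i) (rep M.toCoxeterSystem hp.isCartan w y) - q * (lin (aF i) y + (q : ℤ) • lin (bF i) y)
    rw [ha, hb]
    refine ⟨-lin (bF i) y, ?_⟩
    rw [smul_eq_mul, smul_eq_mul, Nat.cast_add, Nat.cast_pow, Nat.cast_one]
    ring
  · intro u hu y
    show rep M.toCoxeterSystem hp.isCartan u (rep M.toCoxeterSystem hp.isCartan w y) =
      rep M.toCoxeterSystem hp.isCartan w (rep M.toCoxeterSystem hp.isCartan u y)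
    rw [← rep_mul_apply, ← rep_mul_apply, hVw u hu]
  · rw [hV, pow_add, mul_comm 4 v, pow_mul, pow_one]
    exact mul_dvd_mul_right (pow_dvd_pow_of_dvd hv.dvd 4) 5

end Inst

/-! ### `E₆` -/

section SixRows

variable {r : ℕ} [hr : Fact r.Prime] {q : ℕ} {K₀ : Type v} [Group K₀]

/-- the functionals invariant under `rho6` -/
def fI : Fin 4 → Fin 6 → ℤ := ![![1, 0, 0, 0, 0, 1], ![0, 1, 0, 0, 0, 0], ![0, 0, 1, 0, 1, 0], ![0, 0, 0, 1, 0, 0]]

theorem fI_rho (i : Fin 4) (y : Fin 6 → ℤ) : lin (fI i) (permE rho6 y) = lin (fI i) y := by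
  refine add_ext (f := (lin (fI i)).comp (permE rho6).toAddMonoidHom) (g := lin (fI i)) (fun j => ?_) y
  show lin (fI i) (permE rho6 (sr j)) = lin (fI i) (sr j)
  rw [perm_sr, sr_toFnBas, sr_toFnBas]
  have h : ∀ (i : Fin 4) (j : Fin 6), (∑ m, fI i m * toFnBas (rho6 j) m) = ∑ m, fI i m * toFnBas j m := by
    decide +kernel
  exact h i j

theorem rho_rho (y : Fin 6 → ℤ) : permE rho6 (permE rho6 y) = y := by
  have h : ∀ i, rho6.symm (rho6.symm i) = i := by decide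
  funext i
  exact congrArg y (h i)

/-- `g = ± rho6` -/
theorem frame_rho {M : CoxeterMatrix (Fin 6)} {hp : IsType chevE6 6 M} (m : MData hp r q K₀)
    {ε : ℤ} (hε : ε = 1 ∨ ε = -1) (w0 : M.Group)
    (hw0 : ∀ y, rep M.toCoxeterSystem hp.isCartan w0 (m.g y) = ε • permE rho6 y) {N : ℕ} (hN : (N : ℤ) = q - ε)
    {g : (Fin 6 → ℤ) ≃+ (Fin 6 → ℤ)} (hg : ∀ y, g y = ε • permE rho6 y) {v n : ℕ} (hv : 3 ^ v ∣ N)
    (hG : Nat.card (fixedSubgroup m.σ) ∣ n) (hn : Vp 3 n (4 * v + 2))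
    {E : Subgroup ↥(chevE6.group (KK r))} (hE : IsPGroup 3 E) (hσ : ∀ y ∈ E, m.σ y = y) :
    ∃ z, NFrame m E z g := by
  have : Fact (Nat.Prime 3) := ⟨Nat.prime_three⟩
  obtain ⟨V, hV, hVr⟩ := nine_E6 hp
  refine exists_frame m invC_E6 (by norm_num) w0 (j := 4) (N := N) (fun y => by rw [hg, hw0]) (not_dvd_N m hε hN)
    (fun i => lin (fI i)) (fun i => sr (Fin.castLE (by norm_num) i)) ?_ ?_ V ?_ (b := 4 * v + 2)
    ?_ (fun h => hn.not_dvd (h.trans hG)) hE hσ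
  · intro i i'
    have h2 : ∀ i i' : Fin 4, (∑ j, fI i j * toFnBas (Fin.castLE (by norm_num : 4 ≤ 6) i') j) =
        if i = i' then 1 else 0 := by decide +kernel
    show lin (fI i) (sr _) = _
    rw [lin_apply, sr_toFnBas, h2]
  · intro i y
    rw [hg, map_zsmul, fI_rho, hN]
    refine ⟨-lin (fI i) y, ?_⟩
    rw [smul_eq_mul]
    ring
  · intro u hu y
    rw [hg, hg, map_zsmul, hVr u hu]
  · rw [hV, pow_add, mul_comm 4 v, pow_mul]
    exact mul_dvd_mul_right (pow_dvd_pow_of_dvd hv 4) 9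

/-- **`E₆(q)`, `3 ∣ q - 1`.** -/
theorem E6_matched {M : CoxeterMatrix (Fin 6)} {hp : IsType chevE6 6 M} (m : MData hp r q K₀)
    (hm : m.g = AddEquiv.refl _) (h3 : 3 ∣ q - 1) {g : (Fin 6 → ℤ) ≃+ (Fin 6 → ℤ)} (hg : ∀ y, g y = y)
    {E : Subgroup ↥(chevE6.group (KK r))} (hE : IsPGroup 3 E) (hσ : ∀ y ∈ E, m.σ y = y) :
    ∃ z, NFrame m E z g := by
  have : Fact (Nat.Prime 3) := ⟨Nat.prime_three⟩
  have hq := MData_one_lt m
  have h3o : Odd 3 := by decide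
  obtain ⟨v, hv⟩ : ∃ v, Vp 3 (q - 1) v := ⟨_, Vp.of_ne (Nat.sub_pos_of_lt hq).ne'⟩
  have h1 := ((((((Vp.pow_zero (not_dvd_of_pred hq.le h3) 36).mul
      (Vp.sub h3o hq h3 hv (n := 2) (c := 0) (by norm_num) (by decide +kernel))).mul
      (Vp.sub h3o hq h3 hv (n := 5) (c := 0) (by norm_num) (by decide +kernel))).mul
      (Vp.sub h3o hq h3 hv (n := 6) (c := 1) (by norm_num) (by decide +kernel))).mul
      (Vp.sub h3o hq h3 hv (n := 8) (c := 0) (by norm_num) (by decide +kernel))).mul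
      (Vp.sub h3o hq h3 hv (n := 9) (c := 2) (by norm_num) (by decide +kernel))).mul
      (Vp.sub h3o hq h3 hv (n := 12) (c := 1) (by norm_num) (by decide +kernel))
  have e : 0 + (v + 0) + (v + 0) + (v + 1) + (v + 0) + (v + 2) + (v + 1) = 6 * v + 4 := by ring
  rw [e] at h1
  exact frame_pm m invC_E6 (by norm_num) (Or.inl rfl) 1 (fun y => by
    rw [map_one, Module.End.one_apply, hm, one_smul]; rfl) (N := q - 1)
    (by rw [Nat.cast_sub hq.le, Nat.cast_one]) (fun y => by rw [hg, one_smul]) hv.dvd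
    (by rw [card_M_E6 hp]; norm_num : 3 ^ 4 ∣ Nat.card M.Group) (card_E6 m hm) h1.not_dvd hE hσ

/-- **`²E₆(q)`, `3 ∣ q + 1`.** -/
theorem TE6_matched {M : CoxeterMatrix (Fin 6)} {hp : IsType chevE6 6 M} (m : MData hp r q K₀)
    (hm : m.g = permE rho6) (h3 : 3 ∣ q + 1) {g : (Fin 6 → ℤ) ≃+ (Fin 6 → ℤ)} (hg : ∀ y, g y = -y)
    {E : Subgroup ↥(chevE6.group (KK r))} (hE : IsPGroup 3 E) (hσ : ∀ y ∈ E, m.σ y = y) :
    ∃ z, NFrame m E z g := by
  have : Fact (Nat.Prime 3) := ⟨Nat.prime_three⟩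
  obtain rfl : M = CoxeterMatrix.E₆ := eq_E6 hp
  have hq := MData_one_lt m
  have h3o : Odd 3 := by decide
  obtain ⟨v, hv⟩ : ∃ v, Vp 3 (q + 1) v := ⟨_, Vp.of_ne (Nat.succ_ne_zero q)⟩
  have h1 := ((((((Vp.pow_zero (not_dvd_of_succ h3) 36).mul
      (Vp.even h3o hq h3 hv (m := 2) (n := 1) (c := 0) rfl (by norm_num) (by decide +kernel))).mul
      (Vp.add h3o h3 hv (n := 5) (c := 0) (by decide) (by decide +kernel))).mul
      (Vp.even h3o hq h3 hv (m := 6) (n := 3) (c := 1) rfl (by norm_num) (by decide +kernel))).mul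
      (Vp.even h3o hq h3 hv (m := 8) (n := 4) (c := 0) rfl (by norm_num) (by decide +kernel))).mul
      (Vp.add h3o h3 hv (n := 9) (c := 2) (by decide) (by decide +kernel))).mul
      (Vp.even h3o hq h3 hv (m := 12) (n := 6) (c := 1) rfl (by norm_num) (by decide +kernel))
  have e : 0 + (v + 0) + (v + 0) + (v + 1) + (v + 0) + (v + 2) + (v + 1) = 6 * v + 4 := by ring
  rw [e] at h1
  obtain ⟨w0, hw0⟩ := negRho_E6 hp
  exact frame_pm m invC_E6 (by norm_num) (Or.inr rfl) w0 (fun y => by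
    rw [hw0, hm, rho_rho, neg_smul, one_smul]) (N := q + 1)
    (by rw [Nat.cast_add, Nat.cast_one, sub_neg_eq_add]) (fun y => by rw [hg, neg_smul, one_smul]) hv.dvd
    (by rw [card_M_E6 hp]; norm_num : 3 ^ 4 ∣ Nat.card CoxeterMatrix.E₆.Group) (card_fix_tw m hm) h1.not_dvd hE hσ

/-- **`E₆(q)`, `3 ∣ q + 1`.** -/
theorem E6_unmatched {M : CoxeterMatrix (Fin 6)} {hp : IsType chevE6 6 M} (m : MData hp r q K₀)
    (hm : m.g = AddEquiv.refl _) (h3 : 3 ∣ q + 1) {g : (Fin 6 → ℤ) ≃+ (Fin 6 → ℤ)} (hg : ∀ y, g y = -permE rho6 y)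
    {E : Subgroup ↥(chevE6.group (KK r))} (hE : IsPGroup 3 E) (hσ : ∀ y ∈ E, m.σ y = y) :
    ∃ z, NFrame m E z g := by
  have : Fact (Nat.Prime 3) := ⟨Nat.prime_three⟩
  have hq := MData_one_lt m
  have h3o : Odd 3 := by decide
  obtain ⟨v, hv⟩ : ∃ v, Vp 3 (q + 1) v := ⟨_, Vp.of_ne (Nat.succ_ne_zero q)⟩
  have h1 := ((((((Vp.pow_zero (not_dvd_of_succ h3) 36).mul
      (Vp.even h3o hq h3 hv (m := 2) (n := 1) (c := 0) rfl (by norm_num) (by decide +kernel))).mul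
      (Vp.odd h3o hq h3 (n := 5) (by decide))).mul
      (Vp.even h3o hq h3 hv (m := 6) (n := 3) (c := 1) rfl (by norm_num) (by decide +kernel))).mul
      (Vp.even h3o hq h3 hv (m := 8) (n := 4) (c := 0) rfl (by norm_num) (by decide +kernel))).mul
      (Vp.odd h3o hq h3 (n := 9) (by decide))).mul
      (Vp.even h3o hq h3 hv (m := 12) (n := 6) (c := 1) rfl (by norm_num) (by decide +kernel))
  have e : 0 + (v + 0) + 0 + (v + 1) + (v + 0) + 0 + (v + 1) = 4 * v + 2 := by ring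
  rw [e] at h1
  obtain ⟨w0, hw0⟩ := negRho_E6 hp
  exact frame_rho m (Or.inr rfl) w0 (fun y => by
    rw [hw0, hm, neg_smul, one_smul]; rfl) (N := q + 1)
    (by rw [Nat.cast_add, Nat.cast_one, sub_neg_eq_add]) (fun y => by rw [hg, neg_smul, one_smul]) hv.dvd
    (card_E6 m hm) h1 hE hσ

/-- **`²E₆(q)`, `3 ∣ q - 1`.** -/
theorem TE6_unmatched {M : CoxeterMatrix (Fin 6)} {hp : IsType chevE6 6 M} (m : MData hp r q K₀)
    (hm : m.g = permE rho6) (h3 : 3 ∣ q - 1) {g : (Fin 6 → ℤ) ≃+ (Fin 6 → ℤ)} (hg : ∀ y, g y = permE rho6 y)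
    {E : Subgroup ↥(chevE6.group (KK r))} (hE : IsPGroup 3 E) (hσ : ∀ y ∈ E, m.σ y = y) :
    ∃ z, NFrame m E z g := by
  have : Fact (Nat.Prime 3) := ⟨Nat.prime_three⟩
  obtain rfl : M = CoxeterMatrix.E₆ := eq_E6 hp
  have hq := MData_one_lt m
  have h3o : Odd 3 := by decide
  obtain ⟨v, hv⟩ : ∃ v, Vp 3 (q - 1) v := ⟨_, Vp.of_ne (Nat.sub_pos_of_lt hq).ne'⟩
  have h1 := ((((((Vp.pow_zero (not_dvd_of_pred hq.le h3) 36).mul
      (Vp.sub h3o hq h3 hv (n := 2) (c := 0) (by norm_num) (by decide +kernel))).mul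
      (Vp.plus h3o hq h3 5)).mul
      (Vp.sub h3o hq h3 hv (n := 6) (c := 1) (by norm_num) (by decide +kernel))).mul
      (Vp.sub h3o hq h3 hv (n := 8) (c := 0) (by norm_num) (by decide +kernel))).mul
      (Vp.plus h3o hq h3 9)).mul
      (Vp.sub h3o hq h3 hv (n := 12) (c := 1) (by norm_num) (by decide +kernel))
  have e : 0 + (v + 0) + 0 + (v + 1) + (v + 0) + 0 + (v + 1) = 4 * v + 2 := by ring
  rw [e] at h1
  exact frame_rho m (Or.inl rfl) 1 (fun y => by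
    rw [map_one, Module.End.one_apply, hm, one_smul]) (N := q - 1)
    (by rw [Nat.cast_sub hq.le, Nat.cast_one]) (fun y => by rw [hg, one_smul]) hv.dvd
    (card_fix_tw m hm) h1 hE hσ

end SixRows

end Cfsg.Agent.H900.Fra
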